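import Cfsg.Agent.H24.MeetBasic
import Cfsg.Agent.H20.SchurZassenhaus

/-!
Automorphisms congruent to the identity modulo a strongly closed subgroup: coprime conjugacy of automorphisms
agreeing on a subgroup, and automatic congruence of automorphisms of order prime to `p`.
-/

set_option autoImplicit false
set_option linter.unusedSectionVars false

namespace Cfsg.Agent.H24.Balance

open Cfsg Cfsg.FusionSystem
open Cfsg.Agent.H93 (Mor)
open Cfsg.Agent.H94.Meet (TCentric)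
open scoped Pointwise

variable {Ω : Type*} [Group Ω] {S T Z Z' M A : Subgroup Ω} {F : FusionSystem S} {p : ℕ}

/-- The automorphism moves every element within its coset modulo `T`. -/
def CongT (T Z : Subgroup Ω) (a : MulAut Z) : Prop :=
  ∀ x : Z, (x : Ω)⁻¹ * ((a x : Z) : Ω) ∈ T

theorem CongT.mul {a b : MulAut Z} (ha : CongT T Z a) (hb : CongT T Z b) : CongT T Z (a * b) := fun x => by
  have h := T.mul_mem (hb x) (ha (b x))
  rwa [mul_assoc, mul_inv_cancel_left] at h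

theorem CongT.one : CongT T Z (1 : MulAut Z) := fun x => by simp

theorem CongT.inv {a : MulAut Z} (ha : CongT T Z a) : CongT T Z a⁻¹ := fun x => by
  have h := T.inv_mem (ha (a⁻¹ x))
  rw [MulAut.apply_inv_self, mul_inv_rev, inv_inv] at h
  exact h

theorem CongT.pow {a : MulAut Z} (ha : CongT T Z a) (n : ℕ) : CongT T Z (a ^ n) :=
  H24.Meet.cong_pow ha n

/-- The subgroups of the automorphisms congruent to the identity. -/
def congGroup (T Z : Subgroup Ω) : Subgroup (MulAut Z) where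
  carrier := {a | CongT T Z a}
  one_mem' := CongT.one
  mul_mem' := CongT.mul
  inv_mem' := CongT.inv

theorem mem_congGroup {a : MulAut Z} : a ∈ congGroup T Z ↔ CongT T Z a := Iff.rfl

/-- The automorphisms fixing `A` pointwise. -/
def fixGroup (A Z : Subgroup Ω) : Subgroup (MulAut Z) where
  carrier := {a | ∀ x : Z, (x : Ω) ∈ A → a x = x}
  one_mem' x _ := rfl
  mul_mem' {a b} ha hb x hx := by rw [MulAut.mul_apply, hb x hx, ha x hx]
  inv_mem' {a} ha x hx := by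
    show a.symm x = x
    rw [MulEquiv.symm_apply_eq, ha x hx]

theorem mem_fixGroup {a : MulAut Z} : a ∈ fixGroup A Z ↔ ∀ x : Z, (x : Ω) ∈ A → a x = x := Iff.rfl

/-- A map of the system between two subgroups maps the parts in a strongly closed subgroup onto each other. -/
theorem mor_inf (hT : F.StronglyClosed T) {φ : Ω → Ω} (hφ : Mor F Z Z' φ) : Mor F (Z ⊓ T) (Z' ⊓ T) φ := by
  obtain ⟨ψ, hψ, -, hψv⟩ := id hφ
  obtain ⟨φi, hφi, hφi1, hφi2⟩ := hφ.exists_inv
  obtain ⟨χ, hχ, -, hχv⟩ := id hφi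
  refine hφ.restrict_eq inf_le_left (fun x hx => ⟨hφ.map_mem hx.1, ?_⟩) fun y hy => ⟨φi y, ⟨hφi.map_mem hy.1, ?_⟩,
    hφi2 y hy.1⟩
  · rw [← hψv ⟨x, hx.1⟩]
    exact H93.StronglyClosed.apply_mem hT hψ _ hx.2
  · rw [← hχv ⟨y, hy.1⟩]
    exact H93.StronglyClosed.apply_mem hT hχ _ hy.2

/-- Congruence is transported along maps of the system. -/
theorem CongT.conj (hT : F.StronglyClosed T) {φ : Ω → Ω} (hφ : Mor F Z Z' φ) {a : MulAut Z} {a' : MulAut Z'}
    (he : ∀ x : Z, φ ((a x : Z) : Ω) = ((a' ⟨φ x, hφ.map_mem x.2⟩ : Z') : Ω)) (ha : CongT T Z a) :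
    CongT T Z' a' := by
  intro y
  obtain ⟨x, hx, hxy⟩ := hφ.surj y.2
  obtain ⟨y, hy⟩ := y
  simp only at hxy
  subst hxy
  rw [← he ⟨x, hx⟩]
  show (φ x)⁻¹ * φ ((a ⟨x, hx⟩ : Z) : Ω) ∈ T
  rw [← hφ.map_inv hx, ← hφ.map_mul (Z.inv_mem hx) (Subtype.mem _)]
  exact ((mor_inf hT hφ).map_mem (show _ ∈ Z ⊓ T from
    ⟨Z.mul_mem (Z.inv_mem hx) (Subtype.mem _), ha ⟨x, hx⟩⟩)).2

variable [Finite S] [Fact p.Prime]

theorem isPGroup_zpowers {G : Type*} [Group G] {g : G} {k : ℕ} (h : g ^ p ^ k = 1) :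
    IsPGroup p (Subgroup.zpowers g) := by
  rintro ⟨y, m, rfl⟩
  refine ⟨k, Subtype.ext ?_⟩
  show (g ^ m) ^ p ^ k = 1
  rw [← zpow_natCast (g ^ m), ← zpow_mul, mul_comm, zpow_mul, zpow_natCast, h, one_zpow]

/-- The automorphisms fixing `A` and moving every element within its coset modulo `A` form a `p`-group. -/
theorem isPGroup_stabilizer (hS : IsPGroup p S) (hMS : M ≤ S) (K : Subgroup (MulAut M))
    (hfix : ∀ k ∈ K, ∀ x : M, (x : Ω) ∈ A → k x = x)
    (hmod : ∀ k ∈ K, ∀ x : M, (x : Ω)⁻¹ * ((k x : M) : Ω) ∈ A) : IsPGroup p K := by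
  rintro ⟨k, hk⟩
  obtain ⟨n, hn⟩ := H93.pow_eq_one_of_stabilizes hS hMS (δ := k) (R := A) (hfix k hk) (hmod k hk)
  exact ⟨n, Subtype.ext hn⟩

/-- Two automorphisms of order prime to `p` agreeing up to a normalized `p`-group are conjugate under it. -/
theorem exists_conj_of_mem {G : Type*} [Group G] [Finite G] {K : Subgroup G} (hK : IsPGroup p K) {g f : G}
    (hgK : ∀ k ∈ K, g * k * g⁻¹ ∈ K) (hg : (orderOf g).Coprime p) (hf : (orderOf f).Coprime p)
    (h : g⁻¹ * f ∈ K) : ∃ k ∈ K, f = k * g * k⁻¹ := by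
  obtain ⟨n, hn⟩ := IsPGroup.iff_card.1 hK
  have hcop : ∀ {x : G}, (orderOf x).Coprime p → x ∈ K → x = 1 := fun {x} hx hxK => by
    have h1 : orderOf x ∣ p ^ n := hn ▸ Subgroup.orderOf_dvd_natCard K hxK
    exact orderOf_eq_one_iff.1 (Nat.eq_one_of_dvd_coprimes (hx.pow_right n) dvd_rfl h1)
  have hgN : Subgroup.zpowers g ≤ Subgroup.normalizer (K : Set G) := by
    rw [Subgroup.zpowers_le]
    refine Subgroup.mem_normalizer_iff.2 fun k => ⟨hgK k, fun hk => ?_⟩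
    -- conjugation by `g` is a bijection of the finite group `K`
    have hinj : Function.Injective (fun x : K => (⟨g * x * g⁻¹, hgK x x.2⟩ : K)) := fun x y e => by
      have := congrArg (fun z : K => (z : G)) e
      exact Subtype.ext (mul_left_cancel (mul_right_cancel this))
    obtain ⟨x, hx⟩ := Finite.surjective_of_injective hinj ⟨_, hk⟩
    have h2 := congrArg (fun z : K => (z : G)) hx
    have h3 : (x : G) = k := mul_left_cancel (mul_right_cancel h2)
    exact h3 ▸ x.2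
  have hfmem : f ∈ K ⊔ Subgroup.zpowers g := by
    have : f = g * (g⁻¹ * f) := by group
    rw [this]
    exact Subgroup.mul_mem _ (Subgroup.mem_sup_right (Subgroup.mem_zpowers g)) (Subgroup.mem_sup_left h)
  -- congruent powers
  have hcong : ∀ m : ℕ, (g ^ m)⁻¹ * f ^ m ∈ K := by
    intro m
    induction m with
    | zero => simp
    | succ m ih =>
      have h1 : (g ^ (m + 1))⁻¹ * f ^ (m + 1) = (g⁻¹ * ((g ^ m)⁻¹ * f ^ m) * g) * (g⁻¹ * f) := by
        rw [pow_succ, pow_succ]; group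
      rw [h1]
      refine K.mul_mem ?_ h
      have h2 := (Subgroup.mem_normalizer_iff.1
        (Subgroup.inv_mem _ (hgN (Subgroup.mem_zpowers g))) _).1 ih
      rwa [inv_inv] at h2
  have horder : orderOf f = orderOf g := by
    refine Nat.dvd_antisymm (orderOf_dvd_of_pow_eq_one (hcop ?_ ?_)) (orderOf_dvd_of_pow_eq_one (hcop ?_ ?_))
    · exact Nat.Coprime.coprime_dvd_left (orderOf_pow_dvd _) hf
    · simpa [pow_orderOf_eq_one] using hcong (orderOf g)
    · exact Nat.Coprime.coprime_dvd_left (orderOf_pow_dvd _) hg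
    · simpa [pow_orderOf_eq_one] using K.inv_mem (hcong (orderOf f))
  obtain ⟨k, hk, hke⟩ := H20.exists_conj_eq_of_coprime (N := K) (H := Subgroup.zpowers g)
    (K := Subgroup.zpowers f) hgN (by rw [Nat.card_zpowers, hn]; exact hg.pow_right n)
    (Or.inr (by
      haveI := hK.isNilpotent
      infer_instance))
    (Subgroup.zpowers_le.2 hfmem) (by rw [Nat.card_zpowers, Nat.card_zpowers, horder])
  refine ⟨k, hk, ?_⟩
  have hc : k * g * k⁻¹ ∈ Subgroup.zpowers f := by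
    rw [← hke]
    exact ⟨g, Subgroup.mem_zpowers g, rfl⟩
  have hd : f⁻¹ * (k * g * k⁻¹) ∈ Subgroup.zpowers f :=
    Subgroup.mul_mem _ (Subgroup.inv_mem _ (Subgroup.mem_zpowers f)) hc
  have hdK : f⁻¹ * (k * g * k⁻¹) ∈ K := by
    have h2 : f⁻¹ * (k * g * k⁻¹) = (g⁻¹ * f)⁻¹ * (g⁻¹ * k * g) * k⁻¹ := by group
    rw [h2]
    refine K.mul_mem (K.mul_mem (K.inv_mem h) ?_) (K.inv_mem hk)
    have h3 := (Subgroup.mem_normalizer_iff.1 (Subgroup.inv_mem _ (hgN (Subgroup.mem_zpowers g))) _).1 hk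
    rwa [inv_inv] at h3
  obtain ⟨m, hm⟩ := hd
  have hd' : (orderOf (f⁻¹ * (k * g * k⁻¹))).Coprime p := by
    refine Nat.Coprime.coprime_dvd_left (orderOf_dvd_of_pow_eq_one ?_) hf
    rw [← hm]
    show (f ^ m) ^ orderOf f = 1
    rw [← zpow_natCast (f ^ m), ← zpow_mul, mul_comm, zpow_mul, zpow_natCast, pow_orderOf_eq_one, one_zpow]
  exact inv_mul_eq_one.1 (hcop hd' hdK)

/-- An automorphism of order prime to `p` which is congruent on `C` and moves elements within `C T` is congruent. -/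
theorem congT_of_coprime (hS : IsPGroup p S) (hMS : M ≤ S) {C : Subgroup Ω} (hCM : C ≤ M)
    {ψ : MulAut M} (hψ : (orderOf ψ).Coprime p)
    (hC : ∀ x : M, (x : Ω) ∈ C → (x : Ω)⁻¹ * ((ψ x : M) : Ω) ∈ T)
    (hM : ∀ x : M, ∃ c ∈ C, ∃ t ∈ T, (x : Ω)⁻¹ * ((ψ x : M) : Ω) = c * t)
    (hTN : ∀ x ∈ M, x ∈ Subgroup.normalizer (T : Set Ω))
    (hTψ : ∀ x : M, (x : Ω) ∈ T → ((ψ x : M) : Ω) ∈ T) : CongT T M ψ := by
  intro x
  obtain ⟨c, hc, t, ht, hct⟩ := hM x
  have hcM : c ∈ M := hCM hc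
  have htM : t ∈ M := by
    have h1 := M.mul_mem (M.inv_mem hcM) (M.mul_mem (M.inv_mem x.2) (ψ x).2)
    rwa [hct, inv_mul_cancel_left] at h1
  have hstep : ∀ n : ℕ, ∃ s ∈ T, (((ψ ^ n) x : M) : Ω) = (x : Ω) * c ^ n * s := by
    intro n
    induction n with
    | zero => exact ⟨1, T.one_mem, by simp⟩
    | succ n ih =>
      obtain ⟨s, hs, hse⟩ := ih
      have hcn : c ^ n ∈ C := C.pow_mem hc n
      have hsM : s ∈ M := by
        have h1 := M.mul_mem (M.inv_mem (M.mul_mem x.2 (hCM hcn))) ((ψ ^ n) x).2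
        rwa [hse, inv_mul_cancel_left] at h1
      have he : (ψ ^ n) x = x * ⟨c ^ n, hCM hcn⟩ * ⟨s, hsM⟩ := Subtype.ext hse
      rw [pow_succ', MulAut.mul_apply, he, map_mul, map_mul, Subgroup.coe_mul, Subgroup.coe_mul]
      obtain ⟨u, hu, hue⟩ : ∃ u ∈ T, ((ψ ⟨c ^ n, hCM hcn⟩ : M) : Ω) = c ^ n * u :=
        ⟨_, hC ⟨c ^ n, hCM hcn⟩ hcn, by simp⟩
      have hψx : ((ψ x : M) : Ω) = (x : Ω) * (c * t) := by rw [← hct]; group
      refine ⟨((c ^ n)⁻¹ * t * c ^ n) * u * ((ψ ⟨s, hsM⟩ : M) : Ω), T.mul_mem (T.mul_mem ?_ hu) (hTψ _ hs), ?_⟩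
      · have h2 := (Subgroup.mem_normalizer_iff.1 (Subgroup.inv_mem _ (hTN _ (hCM hcn))) t).1 ht
        rwa [inv_inv] at h2
      · rw [hψx, hue, pow_succ' c n]
        group
  have hCp : IsPGroup p C := hS.to_le (hCM.trans hMS)
  obtain ⟨k, hk⟩ := hCp ⟨c, hc⟩
  have hk' : c ^ p ^ k = 1 := congrArg Subtype.val hk
  obtain ⟨s, hs, hse⟩ := hstep (p ^ k)
  rw [hk', mul_one] at hse
  obtain ⟨i, hi⟩ : ∃ i : ℕ, (ψ ^ p ^ k) ^ i = ψ :=
    exists_pow_eq_self_of_coprime (Nat.Coprime.pow_left k (Nat.coprime_comm.1 hψ))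
  have hxq : (x : Ω)⁻¹ * (((ψ ^ p ^ k) x : M) : Ω) ∈ T := by
    rw [hse, inv_mul_cancel_left]
    exact hs
  have hTq : ∀ (m : ℕ) (y : M), (y : Ω) ∈ T → (((ψ ^ m) y : M) : Ω) ∈ T := by
    intro m
    induction m with
    | zero => intro y hy; simpa using hy
    | succ m ih => intro y hy; rw [pow_succ', MulAut.mul_apply]; exact hTψ _ (ih y hy)
  have hiter : ∀ j : ℕ, (x : Ω)⁻¹ * ((((ψ ^ p ^ k) ^ j) x : M) : Ω) ∈ T := by
    intro j
    induction j with
    | zero => simp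
    | succ j ih =>
      have h1 : ((ψ ^ p ^ k) ^ (j + 1)) x = (ψ ^ p ^ k) x * (ψ ^ p ^ k) (x⁻¹ * ((ψ ^ p ^ k) ^ j) x) := by
        rw [← map_mul, mul_inv_cancel_left, ← MulAut.mul_apply, ← pow_succ']
      rw [h1, Subgroup.coe_mul, ← mul_assoc]
      exact T.mul_mem hxq (hTq _ _ (by simpa using ih))
  have := hiter i
  rwa [hi] at this

end Cfsg.Agent.H24.Balance
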