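import Cfsg.Agent.H24.Balance.Basic

/-!
The canonical enlargement of a subgroup `Z` by the elements of a strongly closed subgroup `K` normalizing `Z`,
fixing `Z ⊓ T` and moving `Z` within its cosets modulo `T`; all maps between fully normalized subgroups extend to it.
-/

set_option autoImplicit false
set_option linter.unusedSectionVars false

namespace Cfsg.Agent.H24.Balance

open Cfsg Cfsg.FusionSystem
open Cfsg.Agent.H93 (Mor)
open Cfsg.Agent.H94.Meet (TCentric exists_conjAut)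

variable {Ω : Type*} [Group Ω] {S T K Z Z' : Subgroup Ω} {F : FusionSystem S} {p : ℕ}

/-- All conjugates of `Z` contain their centralizers in `T`. -/
def ZCentric (F : FusionSystem S) (T Z : Subgroup Ω) : Prop :=
  Z ≤ S ∧ ∀ Z' : Subgroup Ω, F.IsConj Z Z' → centralizerIn T Z' ≤ Z'

theorem ZCentric.of_mor (hZ : ZCentric F T Z) {φ : Ω → Ω} (hφ : Mor F Z Z' φ) : ZCentric F T Z' :=
  ⟨hφ.le_right, fun V hV => hZ.2 V (H93.isConj_trans hφ.isConj hV)⟩

theorem ZCentric.mono (hZ : ZCentric F T Z) {Y : Subgroup Ω} (hZY : Z ≤ Y) (hY : Y ≤ S) : ZCentric F T Y := by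
  refine ⟨hY, fun Y' hY' => ?_⟩
  obtain ⟨ψ, hψ, rfl⟩ := hY'
  obtain ⟨f, hf, -⟩ := H93.exists_mor hψ rfl
  obtain ⟨Z', hZ', hfZ⟩ := hf.restrict hZY
  exact fun x hx => hZ' (hZ.2 Z' hfZ.isConj ⟨hx.1, Subgroup.centralizer_le hZ' hx.2⟩)

/-- The elements of `K` normalizing `Z`, fixing `Z ⊓ T` and moving `Z` within its cosets modulo `T`. -/
def stabIn (K T Z : Subgroup Ω) : Subgroup Ω where
  carrier := {s | s ∈ normalizerIn K Z ∧ (∀ q ∈ Z ⊓ T, s * q * s⁻¹ = q) ∧ ∀ z ∈ Z, z⁻¹ * (s * z * s⁻¹) ∈ T}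
  one_mem' := ⟨Subgroup.one_mem _, fun q _ => by simp, fun z _ => by simp⟩
  mul_mem' := by
    rintro a b ⟨ha, haq, haz⟩ ⟨hb, hbq, hbz⟩
    refine ⟨Subgroup.mul_mem _ ha hb, fun q hq => ?_, fun z hz => ?_⟩
    · calc a * b * q * (a * b)⁻¹ = a * (b * q * b⁻¹) * a⁻¹ := by group
        _ = q := by rw [hbq q hq, haq q hq]
    · have hbm : b * z * b⁻¹ ∈ Z := H93.mem_normalizerIn_conj hb hz
      have h := T.mul_mem (hbz z hz) (haz _ hbm)
      convert h using 1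
      group
  inv_mem' := by
    rintro a ⟨ha, haq, haz⟩
    refine ⟨Subgroup.inv_mem _ ha, fun q hq => ?_, fun z hz => ?_⟩
    · have h := haq q hq
      calc a⁻¹ * q * a⁻¹⁻¹ = a⁻¹ * (a * q * a⁻¹) * a := by rw [h]; group
        _ = q := by group
    · have hm : a⁻¹ * z * a⁻¹⁻¹ ∈ Z := H93.mem_normalizerIn_conj (Subgroup.inv_mem _ ha) hz
      have h := T.inv_mem (haz _ hm)
      convert h using 1
      group

theorem mem_stabIn {s : Ω} : s ∈ stabIn K T Z ↔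
    s ∈ normalizerIn K Z ∧ (∀ q ∈ Z ⊓ T, s * q * s⁻¹ = q) ∧ ∀ z ∈ Z, z⁻¹ * (s * z * s⁻¹) ∈ T := Iff.rfl

/-- The enlargement of `Z`. -/
def climb (K T Z : Subgroup Ω) : Subgroup Ω := Z ⊔ stabIn K T Z

theorem le_climb : Z ≤ climb K T Z := le_sup_left

theorem stabIn_le_climb : stabIn K T Z ≤ climb K T Z := le_sup_right

theorem climb_le_normalizerIn (hZ : Z ≤ S) (hK : K ≤ S) : climb K T Z ≤ normalizerIn S Z :=
  sup_le (H93.le_normalizerIn hZ) fun _ hs => ⟨hK hs.1.1, hs.1.2⟩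

theorem climb_le (hZ : Z ≤ S) (hK : K ≤ S) : climb K T Z ≤ S :=
  (climb_le_normalizerIn hZ hK).trans inf_le_left

theorem climb_le_sup : climb K T Z ≤ Z ⊔ K := sup_le le_sup_left fun _ hs => Subgroup.mem_sup_right hs.1.1

/-- In `T` itself congruence is automatic. -/
theorem mem_stabIn_self (hT : F.StronglyClosed T) (hZ : Z ≤ S) {t : Ω} (ht : t ∈ normalizerIn T Z)
    (hc : ∀ q ∈ Z ⊓ T, t * q * t⁻¹ = q) : t ∈ stabIn T T Z := by
  refine ⟨ht, hc, fun z hz => ?_⟩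
  have h := H93.StronglyClosed.conj_mem hT (S.inv_mem (hZ hz)) ht.1
  rw [inv_inv] at h
  have h2 := T.mul_mem h (T.inv_mem ht.1)
  convert h2 using 1
  group

/-- The stabilizer of the series `Z ⊓ T ≤ Z` congruent modulo `T`. -/
def stabAut (F : FusionSystem S) (T Z : Subgroup Ω) : Subgroup (MulAut Z) :=
  F.autGroup Z ⊓ congGroup T Z ⊓ fixGroup (Z ⊓ T) Z

theorem stabAut_le : stabAut F T Z ≤ F.autGroup Z := inf_le_left.trans inf_le_left

/-- Conjugation keeps the stabilizer. -/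
theorem stabAut_conj (hT : F.StronglyClosed T) {φ : Ω → Ω} (hφ : Mor F Z Z' φ) {a : MulAut Z} {a' : MulAut Z'}
    (he : ∀ x : Z, φ ((a x : Z) : Ω) = ((a' ⟨φ x, hφ.map_mem x.2⟩ : Z') : Ω)) (ha : a ∈ stabAut F T Z) :
    a' ∈ stabAut F T Z' := by
  obtain ⟨⟨haF, hac⟩, hafix⟩ := ha
  refine ⟨⟨?_, CongT.conj hT hφ he hac⟩, fun y hy => ?_⟩
  · obtain ⟨f, hf, hfe⟩ := H93.exists_mor_of_aut hφ.le_left haF
    obtain ⟨φi, hφi, hφi1, -⟩ := hφ.exists_inv
    obtain ⟨b, hb, hbe⟩ := ((hφ.comp hf).comp hφi).exists_aut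
    rwa [show a' = b from MulEquiv.ext fun y => Subtype.ext (by
      obtain ⟨x, hx, hxy⟩ := hφ.surj y.2
      obtain ⟨y, hy⟩ := y
      simp only at hxy
      subst hxy
      rw [hbe, ← he ⟨x, hx⟩]
      show φ _ = φ (f (φi (φ x)))
      rw [hφi1 x hx, show f x = _ from hfe ⟨x, hx⟩])]
  · obtain ⟨x, hx, hxy⟩ := (mor_inf hT hφ).surj hy
    obtain ⟨y, hy'⟩ := y
    simp only at hxy
    subst hxy
    refine Subtype.ext ?_
    rw [← he ⟨x, hx.1⟩, show a ⟨x, hx.1⟩ = ⟨x, hx.1⟩ from hafix _ hx]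

variable [Finite S] [Fact p.Prime]

theorem isPGroup_stabAut (hS : IsPGroup p S) (hT : F.StronglyClosed T) (hZ : Z ≤ S) :
    IsPGroup p (stabAut F T Z) :=
  isPGroup_stabilizer hS hZ (A := Z ⊓ T) _ (fun k hk x hx => hk.2 x hx)
    fun k hk x => ⟨Z.mul_mem (Z.inv_mem x.2) (k x).2, hk.1.2 x⟩

/-- Both `Z` and its part in `T` are fully normalized. -/
def Prime (F : FusionSystem S) (T Z : Subgroup Ω) : Prop :=
  F.IsFullyNormalized Z ∧ F.IsFullyNormalized (Z ⊓ T)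

/-- Every subgroup has such a conjugate. -/
theorem exists_prime (hS : IsPGroup p S) (hF : F.IsSaturated p) (hT : F.StronglyClosed T) (hZ : Z ≤ S) :
    ∃ (Z₁ : Subgroup Ω) (φ : Ω → Ω), Mor F Z Z₁ φ ∧ Prime F T Z₁ := by
  obtain ⟨Z', ⟨ψ, hψ, hψr⟩, hZ'⟩ := H93.exists_isFullyNormalized F hZ
  obtain ⟨f, hf, -⟩ := H93.exists_mor hψ hψr
  have hQS : Z' ⊓ T ≤ S := inf_le_left.trans hZ'.1
  obtain ⟨Q₁, hconj, hQ₁⟩ := H93.exists_isFullyNormalized F hQS
  obtain ⟨π, hπ, -, himg⟩ := H93.exists_map_to_fullyNormalized hS hF hQ₁ hconj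
  obtain ⟨g, hg, hge⟩ := H93.exists_mor hπ rfl
  have hNN : normalizerIn S Z' ≤ normalizerIn S (Z' ⊓ T) := by
    intro x hx
    have := H96.finite_of_le hQS
    refine ⟨hx.1, H94.mem_normalizer_of_forall_conj_mem fun y hy => ?_⟩
    exact ⟨H93.mem_normalizerIn_conj hx hy.1, H93.StronglyClosed.conj_mem hT hx.1 hy.2⟩
  obtain ⟨Z₁, -, hgZ⟩ := hg.restrict ((H93.le_normalizerIn hZ'.1).trans hNN)
  obtain ⟨N', -, hgN⟩ := hg.restrict hNN
  have hZ'N := H93.le_normalizerIn hZ'.1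
  refine ⟨Z₁, _, hgZ.comp hf, ⟨hgZ.le_right, fun V hV => ?_⟩, ?_⟩
  · refine (hZ'.2 V (H93.isConj_trans hgZ.isConj hV)).trans ?_
    have : Finite ↥(normalizerIn S Z₁) := H96.finite_of_le (S := S) inf_le_left
    rw [hgN.card_eq]
    refine Subgroup.card_le_of_le fun y hy => ?_
    obtain ⟨x, hx, rfl⟩ := hgN.surj hy
    exact hgN.map_mem_normalizerIn hgZ hZ'N hx hx.2
  · have : Z₁ ⊓ T = Q₁ := by
      have hm := mor_inf hT hgZ
      rw [← himg]
      ext y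
      constructor
      · intro hy
        obtain ⟨x, hx, rfl⟩ := hm.surj hy
        have hxN : x ∈ normalizerIn S (Z' ⊓ T) := hNN (hZ'N hx.1)
        rw [show g x = _ from hge ⟨x, hxN⟩]
        exact H93.apply_mem_imgIn hx
      · intro hy
        obtain ⟨x, hx, rfl⟩ := H93.mem_imgIn.1 hy
        rw [← show g x = _ from hge x]
        exact hm.map_mem hx
    rwa [this]

/-- An element of the stabilizer of a fully normalized subgroup is induced by an element of `S`. -/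
theorem exists_induced_of_stabAut (hS : IsPGroup p S) (hF : F.IsSaturated p) (hT : F.StronglyClosed T)
    (hn : F.IsFullyNormalized Z) {a : MulAut Z} (ha : a ∈ stabAut F T Z) :
    ∃ s ∈ S, ∀ x : Z, ((a x : Z) : Ω) = s * x * s⁻¹ := by
  have hZ := hn.1
  have := H93.finite_autGroup (F := F) hZ
  obtain ⟨-, R, hR⟩ := (H94.fullyNormalized_spec hS hF hn).1
  have : ((stabAut F T Z).subgroupOf (F.autGroup Z)).Normal := by
    refine ⟨fun k hk c => ?_⟩
    rw [Subgroup.mem_subgroupOf] at hk ⊢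
    obtain ⟨f, hf, hfe⟩ := H93.exists_mor_of_aut hZ c.2
    refine stabAut_conj hT hf (fun x => ?_) hk
    rw [hfe, show (⟨f x, hf.map_mem x.2⟩ : Z) = (c : MulAut Z) x from Subtype.ext (hfe x)]
    simp
  have hp : IsPGroup p ((stabAut F T Z).subgroupOf (F.autGroup Z)) :=
    (isPGroup_stabAut hS hT hZ).comap_of_injective _ (Subgroup.subtype_injective _)
  have hle := R.3 (hp.to_sup_of_normal_left R.2) le_sup_right
  have hm : (⟨a, stabAut_le ha⟩ : F.autGroup Z) ∈ (R : Subgroup (F.autGroup Z)) :=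
    hle ▸ Subgroup.mem_sup_left (Subgroup.mem_subgroupOf.2 ha)
  rw [hR] at hm
  exact H96.mem_autInducedBy.1 (Subgroup.mem_subgroupOf.1 hm)

/-- Conjugation by an element of `stabIn` lies in the stabilizer. -/
theorem exists_stabAut_of_mem (hZ : Z ≤ S) (hK : K ≤ S) {s : Ω} (hs : s ∈ stabIn K T Z) :
    ∃ a ∈ stabAut F T Z, ∀ x : Z, ((a x : Z) : Ω) = s * x * s⁻¹ := by
  obtain ⟨a, ha, hae⟩ := H94.exists_autInducedBy (P := Z) (hK hs.1.1) hs.1.2
  have := H96.finite_of_le hZ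
  refine ⟨a, ⟨⟨H96.autInducedBy_le_autGroup F hZ ha, fun x => ?_⟩, fun x hx => ?_⟩, hae⟩
  · rw [hae]; exact hs.2.2 x x.2
  · exact Subtype.ext ((hae x).trans (hs.2.1 x ⟨x.2, hx.2⟩))

/-- A map onto a fully normalized subgroup extends to the enlargement, landing in that of its image. -/
theorem exists_climb_map (hS : IsPGroup p S) (hF : F.IsSaturated p) (hT : F.StronglyClosed T)
    (hK : F.StronglyClosed K) {χ : Ω → Ω} (hχ : Mor F Z Z' χ) (hZ' : F.IsFullyNormalized Z') :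
    ∃ (g : Ω → Ω) (M : Subgroup Ω), Mor F (climb K T Z) M g ∧ M ≤ climb K T Z' ∧ Mor F Z Z' g ∧
      ∀ x ∈ Z, g x = χ x := by
  have hZ := hχ.le_left
  obtain ⟨g, M, hg, hge, hgZ⟩ := hχ.extend (M := stabIn K T Z) (H94.fullyNormalized_spec hS hF hZ').2 fun s hs => by
    refine ⟨⟨hK.1 hs.1.1, hs.1.2⟩, ?_⟩
    obtain ⟨a, ha, hae⟩ := exists_stabAut_of_mem (F := F) hZ hK.1 hs
    obtain ⟨a', ha'⟩ := exists_conjAut hχ a
    obtain ⟨t, ht, hte⟩ := exists_induced_of_stabAut hS hF hT hZ' (stabAut_conj hT hχ ha' ha)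
    exact ⟨t, ht, fun x hx => by rw [← hae ⟨x, hx⟩, ha' ⟨x, hx⟩, hte]⟩
  change Mor F (climb K T Z) M g at hg
  refine ⟨g, M, hg, ?_, hgZ, hge⟩
  obtain ⟨ψ, hψ, hψr, hψv⟩ := id hg
  have hgQ : Mor F (Z ⊓ T) (Z' ⊓ T) g := mor_inf hT hgZ
  have hle : climb K T Z ≤ ((climb K T Z').comap ψ).map (climb K T Z).subtype := by
    refine sup_le (fun x hx => ⟨⟨x, Subgroup.mem_sup_left hx⟩, Subgroup.mem_comap.2 ?_, rfl⟩)
      fun s hs => ⟨⟨s, Subgroup.mem_sup_right hs⟩, Subgroup.mem_comap.2 ?_, rfl⟩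
    · rw [hψv]; exact le_climb (hgZ.map_mem hx)
    · rw [hψv]
      have hsM : s ∈ climb K T Z := Subgroup.mem_sup_right hs
      have hn := hg.map_mem_normalizerIn hgZ le_climb hsM hs.1.2
      refine stabIn_le_climb ⟨⟨?_, hn.2⟩, fun q hq => ?_, fun z hz => ?_⟩
      · show g s ∈ K
        rw [← hψv ⟨s, hsM⟩]
        exact H93.StronglyClosed.apply_mem hK hψ _ hs.1.1
      · obtain ⟨q, hq', rfl⟩ := hgQ.surj hq
        show g s * g q * (g s)⁻¹ = g q
        rw [← hg.map_conj hsM (le_climb hq'.1), hs.2.1 q hq']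
      · obtain ⟨z, hz', rfl⟩ := hgZ.surj hz
        show (g z)⁻¹ * (g s * g z * (g s)⁻¹) ∈ T
        rw [← hg.map_conj hsM (le_climb hz'), ← hg.map_inv (le_climb hz'),
          ← hg.map_mul (Subgroup.inv_mem _ (le_climb hz')) (Subgroup.mul_mem _ (Subgroup.mul_mem _ hsM
            (le_climb hz')) (Subgroup.inv_mem _ hsM))]
        exact (hgQ.map_mem (show _ ∈ Z ⊓ T from
          ⟨Z.mul_mem (Z.inv_mem hz') (H93.mem_normalizerIn_conj hs.1 hz'), hs.2.2 z hz'⟩)).2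
  intro y hy
  obtain ⟨x, hx, rfl⟩ := hg.surj hy
  obtain ⟨w, hw, rfl⟩ := hle hx
  exact hψv w ▸ hw

/-- Between fully normalized subgroups the extension is onto. -/
theorem exists_climb_iso (hS : IsPGroup p S) (hF : F.IsSaturated p) (hT : F.StronglyClosed T)
    (hK : F.StronglyClosed K) {χ : Ω → Ω} (hχ : Mor F Z Z' χ) (hZ : F.IsFullyNormalized Z)
    (hZ' : F.IsFullyNormalized Z') :
    ∃ g : Ω → Ω, Mor F (climb K T Z) (climb K T Z') g ∧ Mor F Z Z' g ∧ ∀ x ∈ Z, g x = χ x := by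
  obtain ⟨g, M, hg, hM, hgZ, hge⟩ := exists_climb_map hS hF hT hK hχ hZ'
  obtain ⟨χi, hχi, -, -⟩ := hχ.exists_inv
  obtain ⟨g', M', hg', hM', -, -⟩ := exists_climb_map hS hF hT hK hχi hZ
  have : Finite ↥(climb K T Z') := H96.finite_of_le (climb_le hZ'.1 hK.1)
  have : Finite ↥(climb K T Z) := H96.finite_of_le (climb_le hZ.1 hK.1)
  obtain rfl : M = climb K T Z' := by
    refine Subgroup.eq_of_le_of_card_ge hM ?_
    rw [← hg.card_eq, hg'.card_eq]
    exact Subgroup.card_le_of_le hM'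
  exact ⟨g, hg, hgZ, hge⟩

/-- The enlargement grows in `T` as long as the part in `T` is not centric. -/
theorem inf_lt_climb (hS : IsPGroup p S) (hF : F.IsSaturated p) (hT : F.StronglyClosed T) (hp : Prime F T Z)
    (hc : ¬ TCentric F T (Z ⊓ T)) : Z ⊓ T < climb T T Z ⊓ T := by
  have hZ := hp.1.1
  have hQT : Z ⊓ T ≤ T := inf_le_right
  have hQS : Z ⊓ T ≤ S := inf_le_left.trans hZ
  have hnle : ¬ centralizerIn T (Z ⊓ T) ≤ Z ⊓ T := by
    intro hle
    refine hc ⟨hQT, fun U hU y hy => ?_⟩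
    obtain ⟨ψ, hψ, hψr⟩ := H93.isConj_symm hU
    obtain ⟨f, hf, -⟩ := H93.exists_mor hψ hψr
    obtain ⟨g, hge, M, -, hg, -⟩ := H94.Meet.exists_hull_map hS hF hf
      (H94.fullyNormalized_fullyCentralized hS hF hp.2)
    have hfU : Mor F U (Z ⊓ T) g := hf.congr fun x hx => (hge x hx).symm
    have hyH : y ∈ H94.Meet.hull S U := H94.Meet.centralizerIn_le_hull S U ⟨hT.1 hy.1, hy.2⟩
    obtain ⟨χ, hχ, -, hχv⟩ := id hg
    have hgy : g y ∈ centralizerIn T (Z ⊓ T) := by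
      refine ⟨?_, (hg.map_mem_centralizerIn hfU (H94.Meet.le_hull S U) hyH (fun r hr => ?_)).2⟩
      · rw [← hχv ⟨y, hyH⟩]
        exact H93.StronglyClosed.apply_mem hT hχ _ hy.1
      · rw [← Subgroup.mem_centralizer_iff.1 hy.2 r hr, mul_inv_cancel_right]
    exact (hg.mem_iff hfU (H94.Meet.le_hull S U) hyH).1 (hle hgy)
  have hlt : Z < Z ⊔ centralizerIn T (Z ⊓ T) := by
    refine lt_of_le_of_ne le_sup_left fun e => hnle fun c hc' => ⟨?_, hc'.1⟩
    rw [e]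
    exact Subgroup.mem_sup_right hc'
  have hWS : Z ⊔ centralizerIn T (Z ⊓ T) ≤ S := sup_le hZ (inf_le_left.trans hT.1)
  have := H96.finite_of_le hWS
  obtain ⟨y, ⟨hy, hyN⟩, hyZ⟩ := SetLike.exists_of_lt (H93.lt_inf_normalizer (H93.isPGroup_of_le hS hWS) hlt)
  have hNC : Z ≤ Subgroup.normalizer (centralizerIn T (Z ⊓ T) : Set Ω) := by
    intro z hz
    have : Finite ↥(centralizerIn T (Z ⊓ T)) := H96.finite_of_le (S := S) (inf_le_left.trans hT.1)
    refine H94.mem_normalizer_of_forall_conj_mem fun c hc' => H93.mem_centralizerIn.2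
      ⟨H93.StronglyClosed.conj_mem hT (hZ hz) hc'.1, fun q hq => ?_⟩
    have hq' : z⁻¹ * q * z ∈ Z ⊓ T := by
      refine ⟨Z.mul_mem (Z.mul_mem (Z.inv_mem hz) hq.1) hz, ?_⟩
      have := H93.StronglyClosed.conj_mem hT (S.inv_mem (hZ hz)) hq.2
      rwa [inv_inv] at this
    calc z * c * z⁻¹ * q * (z * c * z⁻¹)⁻¹ = z * (c * (z⁻¹ * q * z) * c⁻¹) * z⁻¹ := by group
      _ = q := by rw [(H93.mem_centralizerIn.1 hc').2 _ hq']; group
  have hy' : y ∈ ((Z ⊔ centralizerIn T (Z ⊓ T) : Subgroup Ω) : Set Ω) := hy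
  rw [Subgroup.coe_mul_of_left_le_normalizer_right Z _ hNC] at hy'
  obtain ⟨z, hz, c, hc', rfl⟩ := hy'
  have hcN : c ∈ normalizerIn T Z :=
    ⟨hc'.1, (Subgroup.mul_mem_cancel_left _ (Subgroup.le_normalizer hz)).1 hyN⟩
  refine lt_of_le_of_ne (inf_le_inf_right _ le_climb) fun e => hyZ (Z.mul_mem hz ?_)
  have hm : c ∈ climb T T Z ⊓ T := ⟨stabIn_le_climb
    (mem_stabIn_self hT hZ hcN fun q hq => (H93.mem_centralizerIn.1 hc').2 q hq), hc'.1⟩
  rw [← e] at hm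
  exact hm.1

end Cfsg.Agent.H24.Balance
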