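import Cfsg.Agent.H24.Balance.Climb

/-!
The good automorphisms: automorphisms of order prime to `p`, congruent modulo `T`, whose canonical extensions
lie in the normal subsystem `E` on a centric subgroup of `T`.
-/

set_option autoImplicit false
set_option linter.unusedSectionVars false

namespace Cfsg.Agent.H24.Balance

open Cfsg Cfsg.FusionSystem
open Cfsg.Agent.H93 (Mor)
open Cfsg.Agent.H94.Meet (TCentric ActsIn actsIn_iff exists_conjAut actsIn_conj)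

variable {Ω : Type*} [Group Ω] {S T Z Z' : Subgroup Ω} {F : FusionSystem S} {E : FusionSystem T} {p : ℕ}

/-- The restriction to `Z ⊓ T` lies in `E`. -/
def InE (E : FusionSystem T) (Z : Subgroup Ω) (a : MulAut Z) : Prop :=
  ∃ f : Ω → Ω, Mor E (Z ⊓ T) (Z ⊓ T) f ∧ ∀ x : Z, (x : Ω) ∈ T → f x = ((a x : Z) : Ω)

/-- The good automorphisms. -/
inductive GoodAut (p : ℕ) (F : FusionSystem S) (E : FusionSystem T) : ∀ Z : Subgroup Ω, MulAut Z → Prop
  | base {Z : Subgroup Ω} {a : MulAut Z} : TCentric F T (Z ⊓ T) → a ∈ F.autGroup Z → Z ≤ S → CongT T Z a →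
      (orderOf a).Coprime p → InE E Z a → GoodAut p F E Z a
  | step {Z Z₁ : Subgroup Ω} {a : MulAut Z} {φ : Ω → Ω} {β : MulAut ↥(climb T T Z₁)} :
      ¬ TCentric F T (Z ⊓ T) → Prime F T Z₁ → (hφ : Mor F Z Z₁ φ) → GoodAut p F E (climb T T Z₁) β →
      (orderOf β).Coprime p →
      (∀ x : Z, φ ((a x : Z) : Ω) = ((β ⟨φ x, le_climb (hφ.map_mem x.2)⟩ : ↥(climb T T Z₁)) : Ω)) →
      GoodAut p F E Z a

/-- The restriction of an automorphism of coprime order has coprime order. -/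
theorem coprime_of_intertwine {A B : Type*} [Group A] [Group B] {f : A → B} (hf : Function.Injective f)
    {a : MulAut A} {b : MulAut B} (h : ∀ x, b (f x) = f (a x)) (hb : (orderOf b).Coprime p) :
    (orderOf a).Coprime p := by
  refine Nat.Coprime.coprime_dvd_left (orderOf_dvd_of_pow_eq_one (MulEquiv.ext fun x => hf ?_)) hb
  rw [← H96.pow_intertwine f h, pow_orderOf_eq_one]
  rfl

theorem GoodAut.le {a : MulAut Z} (h : GoodAut p F E Z a) : Z ≤ S := by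
  cases h with
  | base _ _ hZ _ _ _ => exact hZ
  | step _ _ hφ _ _ _ => exact hφ.le_left

theorem GoodAut.coprime {a : MulAut Z} (h : GoodAut p F E Z a) : (orderOf a).Coprime p := by
  cases h with
  | base _ _ _ _ h _ => exact h
  | @step _ Z₁ _ φ β _ _ hφ _ hβ he =>
    refine coprime_of_intertwine (f := fun x : Z => (⟨φ x, le_climb (hφ.map_mem x.2)⟩ : ↥(climb T T Z₁))) ?_
      (fun x => Subtype.ext (he x).symm) hβ
    exact fun x y e => Subtype.ext (hφ.injOn x.2 y.2 (congrArg Subtype.val e))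

variable [Finite S] [Fact p.Prime]

theorem GoodAut.mem_autGroup {a : MulAut Z} (h : GoodAut p F E Z a) : a ∈ F.autGroup Z := by
  induction h with
  | base _ ha _ _ _ _ => exact ha
  | @step Z Z₁ a φ β _ _ hφ hg _ he ih =>
    obtain ⟨g, hgM, hge⟩ := H93.exists_mor_of_aut hg.le ih
    have hg1 : ∀ (x : Ω) (hx : x ∈ Z), g (φ x) = φ ((a ⟨x, hx⟩ : Z) : Ω) := fun x hx =>
      (hge ⟨φ x, le_climb (hφ.map_mem hx)⟩).trans (he ⟨x, hx⟩).symm
    have hgZ : Mor F Z₁ Z₁ g := by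
      refine hgM.restrict_eq le_climb (fun y hy => ?_) fun y hy => ?_
      · obtain ⟨x, hx, rfl⟩ := hφ.surj hy
        rw [hg1 x hx]
        exact hφ.map_mem (a ⟨x, hx⟩).2
      · obtain ⟨x, hx, rfl⟩ := hφ.surj hy
        obtain ⟨z, hz⟩ := a.surjective ⟨x, hx⟩
        exact ⟨φ z, hφ.map_mem z.2, by rw [hg1 z z.2, hz]⟩
    obtain ⟨φi, hφi, hφi1, -⟩ := hφ.exists_inv
    obtain ⟨b, hb, hbe⟩ := ((hφi.comp hgZ).comp hφ).exists_aut
    rwa [show a = b from MulEquiv.ext fun x => Subtype.ext (by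
      rw [hbe]
      show _ = φi (g (φ x))
      rw [hg1 x x.2, hφi1 _ (a _).2])]

theorem GoodAut.congT (hT : F.StronglyClosed T) {a : MulAut Z} (h : GoodAut p F E Z a) : CongT T Z a := by
  induction h with
  | base _ _ _ h _ _ => exact h
  | @step Z Z₁ a φ β _ _ hφ hg _ he ih =>
    obtain ⟨φi, hφi, hφi1, -⟩ := hφ.exists_inv
    obtain ⟨a', ha'⟩ := exists_conjAut hφ a
    refine CongT.conj hT hφi (a := a') (fun y => ?_) fun y => ?_
    · obtain ⟨x, hx, hxy⟩ := hφ.surj y.2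
      obtain ⟨y, hy⟩ := y
      simp only at hxy
      subst hxy
      rw [← ha' ⟨x, hx⟩, hφi1 _ (a _).2]
      exact congrArg (fun z : Z => ((a z : Z) : Ω)) (Subtype.ext (hφi1 x hx).symm)
    · obtain ⟨x, hx, hxy⟩ := hφ.surj y.2
      obtain ⟨y, hy⟩ := y
      simp only at hxy
      subst hxy
      rw [← ha' ⟨x, hx⟩, he ⟨x, hx⟩]
      exact ih ⟨φ x, le_climb (hφ.map_mem hx)⟩

theorem inE_conj (hE : E.IsInvariantIn F) {φ : Ω → Ω} (hφ : Mor F Z Z' φ) {a : MulAut Z} {a' : MulAut Z'}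
    (he : ∀ x : Z, φ ((a x : Z) : Ω) = ((a' ⟨φ x, hφ.map_mem x.2⟩ : Z') : Ω)) (h : InE E Z a) : InE E Z' a' := by
  obtain ⟨f, hf, hfe⟩ := h
  have hT := hE.2.1
  have hQ := mor_inf hT hφ
  obtain ⟨b, -, hbe⟩ := hf.exists_aut
  obtain ⟨b', hb'⟩ := exists_conjAut hQ b
  obtain ⟨g, hg, hge⟩ := actsIn_conj hE inf_le_right hQ ⟨f, hf, fun x => (hbe x).symm⟩ hb'
  refine ⟨g, hg, fun y hy => ?_⟩
  obtain ⟨x, hx, hxy⟩ := hQ.surj (show (y : Ω) ∈ Z' ⊓ T from ⟨y.2, hy⟩)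
  obtain ⟨y, hy'⟩ := y
  simp only at hxy
  subst hxy
  rw [show g (φ x) = _ from hge ⟨φ x, hQ.map_mem hx⟩, ← hb' ⟨x, hx⟩, hbe, hfe ⟨x, hx.1⟩ hx.2, he ⟨x, hx.1⟩]

/-- The good automorphisms are permuted by the maps of the system. -/
theorem GoodAut.conj (hE : E.IsInvariantIn F) {φ : Ω → Ω} (hφ : Mor F Z Z' φ) {a : MulAut Z} {a' : MulAut Z'}
    (he : ∀ x : Z, φ ((a x : Z) : Ω) = ((a' ⟨φ x, hφ.map_mem x.2⟩ : Z') : Ω)) (h : GoodAut p F E Z a) :
    GoodAut p F E Z' a' := by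
  have hT := hE.2.1
  have hco : (orderOf a').Coprime p := H24.Meet.coprime_conjAut hφ he h.coprime
  cases h with
  | base hc haF hZ hcg _ hin =>
    refine GoodAut.base (hc.of_mor hT (mor_inf hT hφ)) ?_ hφ.le_right (CongT.conj hT hφ he hcg) hco
      (inE_conj hE hφ he hin)
    obtain ⟨f, hf, hfe⟩ := H93.exists_mor_of_aut hZ haF
    obtain ⟨φi, hφi, hφi1, -⟩ := hφ.exists_inv
    obtain ⟨b, hb, hbe⟩ := ((hφ.comp hf).comp hφi).exists_aut
    rwa [show a' = b from MulEquiv.ext fun y => Subtype.ext (by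
      obtain ⟨x, hx, hxy⟩ := hφ.surj y.2
      obtain ⟨y, hy⟩ := y
      simp only at hxy
      subst hxy
      rw [hbe, ← he ⟨x, hx⟩]
      show φ _ = φ (f (φi (φ x)))
      rw [hφi1 x hx, show f x = _ from hfe ⟨x, hx⟩])]
  | @step _ Z₁ _ ψ β hc hp hψ hg hβ hψe =>
    obtain ⟨φi, hφi, hφi1, -⟩ := hφ.exists_inv
    refine GoodAut.step (fun h' => hc (h'.of_mor hT (mor_inf hT hφi))) hp (hψ.comp hφi) hg hβ fun y => ?_
    obtain ⟨x, hx, hxy⟩ := hφ.surj y.2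
    obtain ⟨y, hy⟩ := y
    simp only at hxy
    subst hxy
    show ψ (φi _) = _
    rw [← he ⟨x, hx⟩, hφi1 _ (a _).2, hψe ⟨x, hx⟩]
    exact congrArg (fun z : ↥(climb T T Z₁) => ((β z : ↥(climb T T Z₁)) : Ω))
      (Subtype.ext (congrArg ψ (hφi1 x hx).symm))

theorem GoodAut.conj_aut (hE : E.IsInvariantIn F) {a k : MulAut Z} (hk : k ∈ F.autGroup Z)
    (h : GoodAut p F E Z a) : GoodAut p F E Z (k * a * k⁻¹) := by
  obtain ⟨f, hf, hfe⟩ := H93.exists_mor_of_aut h.le hk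
  refine h.conj hE hf fun x => ?_
  rw [hfe, show (⟨f x, hf.map_mem x.2⟩ : Z) = k x from Subtype.ext (hfe x)]
  simp

theorem goodAut_conj_aut_iff (hE : E.IsInvariantIn F) {a k : MulAut Z} (hk : k ∈ F.autGroup Z) :
    GoodAut p F E Z (k * a * k⁻¹) ↔ GoodAut p F E Z a := by
  refine ⟨fun h => ?_, fun h => h.conj_aut hE hk⟩
  have := h.conj_aut hE (inv_mem hk)
  simpa [mul_assoc] using this

/-- Congruence on a join with a part of `T` comes from the congruence on `Z`. -/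
theorem congT_of_sup (hT : F.StronglyClosed T) {Y : Subgroup Ω} (hY : Y ≤ S) (hZY : Z ≤ Y) (hYT : Y ≤ Z ⊔ T)
    {α : MulAut Y} (hα : α ∈ F.autGroup Y) (hZ : ∀ x : Y, (x : Ω) ∈ Z → (x : Ω)⁻¹ * ((α x : Y) : Ω) ∈ T) :
    CongT T Y α := by
  intro y
  have hy : (y : Ω) ∈ ((Z ⊔ T : Subgroup Ω) : Set Ω) := hYT y.2
  rw [Subgroup.coe_mul_of_left_le_normalizer_right Z T
    ((hZY.trans hY).trans (H93.StronglyClosed.le_normalizer hT))] at hy
  obtain ⟨z, hz, t, ht, hzt⟩ := hy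
  have hzt' : z * t = y := hzt
  have htY : t ∈ Y := by
    have := Y.mul_mem (Y.inv_mem (hZY hz)) y.2
    rwa [← hzt', inv_mul_cancel_left] at this
  rw [show y = ⟨z, hZY hz⟩ * ⟨t, htY⟩ from Subtype.ext hzt'.symm, map_mul]
  show (z * t)⁻¹ * (((α ⟨z, hZY hz⟩ : Y) : Ω) * ((α ⟨t, htY⟩ : Y) : Ω)) ∈ T
  have h1 := hZ ⟨z, hZY hz⟩ hz
  have h2 : ((α ⟨t, htY⟩ : Y) : Ω) ∈ T := H93.StronglyClosed.aut_mem hT hY hα _ ht
  have h3 := T.mul_mem (T.mul_mem (T.inv_mem ht) h1) h2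
  convert h3 using 1
  group

/-- Automorphisms agreeing on `Z` of a subgroup normalizing it are conjugate. -/
theorem exists_conj_agree (hS : IsPGroup p S) (hT : F.StronglyClosed T) (hZ : ZCentric F T Z) {M : Subgroup Ω}
    (hZM : Z ≤ M) (hM : M ≤ normalizerIn S Z) {g f : MulAut M} (hgF : g ∈ F.autGroup M) (hfF : f ∈ F.autGroup M)
    (hgp : (orderOf g).Coprime p) (hfp : (orderOf f).Coprime p) (hgc : CongT T M g) (hfc : CongT T M f)
    (hgZ : ∀ x : M, (x : Ω) ∈ Z ↔ ((g x : M) : Ω) ∈ Z) (hagree : ∀ x : M, (x : Ω) ∈ Z → g x = f x) :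
    ∃ k ∈ F.autGroup M, f = k * g * k⁻¹ := by
  have hMS : M ≤ S := hM.trans inf_le_left
  have := H96.finite_of_le hMS
  have : Finite (MulAut M) := Finite.of_injective (fun e : MulAut M => (e : M → M)) DFunLike.coe_injective
  obtain ⟨K, hK⟩ : ∃ K, K = F.autGroup M ⊓ congGroup T M ⊓ fixGroup Z M := ⟨_, rfl⟩
  have hKp : IsPGroup p K := by
    rw [hK]
    refine isPGroup_stabilizer hS hMS (A := Z) _ (fun k hk x hx => hk.2 x hx) fun k hk x => ?_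
    refine hZ.2 Z (H93.isConj_refl F hZ.1) (H93.mem_centralizerIn.2 ⟨hk.1.2 x, fun z hz => ?_⟩)
    have hzM : z ∈ M := hZM hz
    have hz2 : (x : Ω) * z * (x : Ω)⁻¹ ∈ Z := H93.mem_normalizerIn_conj (hM x.2) hz
    have h1 : k (x * ⟨z, hzM⟩ * x⁻¹) = x * ⟨z, hzM⟩ * x⁻¹ := hk.2 _ hz2
    rw [map_mul, map_mul, map_inv, show k ⟨z, hzM⟩ = ⟨z, hzM⟩ from hk.2 _ hz] at h1
    have h2 : ((k x : M) : Ω) * z * ((k x : M) : Ω)⁻¹ = (x : Ω) * z * (x : Ω)⁻¹ := congrArg Subtype.val h1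
    calc (x : Ω)⁻¹ * (k x : M) * z * ((x : Ω)⁻¹ * (k x : M))⁻¹
        = (x : Ω)⁻¹ * (((k x : M) : Ω) * z * ((k x : M) : Ω)⁻¹) * x := by group
      _ = z := by rw [h2]; group
  have hgK : ∀ k ∈ K, g * k * g⁻¹ ∈ K := by
    intro k hk
    rw [hK] at hk ⊢
    refine ⟨⟨Subgroup.mul_mem _ (Subgroup.mul_mem _ hgF hk.1.1) (Subgroup.inv_mem _ hgF), (hgc.mul hk.1.2).mul hgc.inv⟩, fun x hx => ?_⟩
    rw [MulAut.mul_apply, MulAut.mul_apply, hk.2 (g⁻¹ x) ((hgZ _).2 (by rwa [MulAut.apply_inv_self])),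
      MulAut.apply_inv_self]
  have hgf : g⁻¹ * f ∈ K := by
    rw [hK]
    refine ⟨⟨Subgroup.mul_mem _ (Subgroup.inv_mem _ hgF) hfF, hgc.inv.mul hfc⟩, fun x hx => ?_⟩
    rw [MulAut.mul_apply, ← hagree x hx, MulAut.inv_apply_self]
  obtain ⟨k, hk, hfk⟩ := exists_conj_of_mem hKp hgK hgp hfp hgf
  exact ⟨k, (hK ▸ hk : k ∈ F.autGroup M ⊓ congGroup T M ⊓ fixGroup Z M).1.1, hfk⟩

end Cfsg.Agent.H24.Balance
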