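import Cfsg.Agent.H24.Balance.Good
import Cfsg.Agent.H35.Meet.Stabilizer

/-!
Good automorphisms restrict to and lift from the subgroups they stabilize.
-/

set_option autoImplicit false
set_option linter.unusedSectionVars false

namespace Cfsg.Agent.H24.Balance

open Cfsg Cfsg.FusionSystem
open Cfsg.Agent.H93 (Mor)
open Cfsg.Agent.H94.Meet (TCentric ActsIn actsIn_iff exists_conjAut actsIn_conj)

variable {Ω : Type*} [Group Ω] {S T Z Z' Y : Subgroup Ω} {F : FusionSystem S} {E : FusionSystem T} {p : ℕ}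

theorem inf_lt_of_sup (hT : F.StronglyClosed T) (hY : Y ≤ S) (hlt : Z < Y) (hYT : Y ≤ Z ⊔ T) : Z ⊓ T < Y ⊓ T := by
  refine lt_of_le_of_ne (inf_le_inf_right _ hlt.le) fun e => hlt.not_ge fun y hy => ?_
  have hy' : y ∈ ((Z ⊔ T : Subgroup Ω) : Set Ω) := hYT hy
  rw [Subgroup.coe_mul_of_left_le_normalizer_right Z T
    ((hlt.le.trans hY).trans (H93.StronglyClosed.le_normalizer hT))] at hy'
  obtain ⟨z, hz, t, ht, rfl⟩ := hy'
  have htY : t ∈ Y := by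
    have := Y.mul_mem (Y.inv_mem (hlt.le hz)) hy
    rwa [inv_mul_cancel_left] at this
  exact Z.mul_mem hz (e.ge ⟨htY, ht⟩).1

theorem eq_sup_inf (hT : F.StronglyClosed T) (hY : Y ≤ S) (hZY : Z ≤ Y) (hYT : Y ≤ Z ⊔ T) : Z ⊔ (Y ⊓ T) = Y := by
  refine le_antisymm (sup_le hZY inf_le_left) fun y hy => ?_
  have hy' : y ∈ ((Z ⊔ T : Subgroup Ω) : Set Ω) := hYT hy
  rw [Subgroup.coe_mul_of_left_le_normalizer_right Z T
    ((hZY.trans hY).trans (H93.StronglyClosed.le_normalizer hT))] at hy'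
  obtain ⟨z, hz, t, ht, rfl⟩ := hy'
  refine Subgroup.mul_mem _ (Subgroup.mem_sup_left hz) (Subgroup.mem_sup_right ⟨?_, ht⟩)
  have := Y.mul_mem (Y.inv_mem (hZY hz)) hy
  rwa [inv_mul_cancel_left] at this

variable [Finite S] [Fact p.Prime]

/-- Every automorphism of a fully normalized subgroup of order prime to `p` extends to its enlargement. -/
theorem exists_ext_climb (hS : IsPGroup p S) (hF : F.IsSaturated p) {K : Subgroup Ω} (hT : F.StronglyClosed T)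
    (hK : F.StronglyClosed K) (hn : F.IsFullyNormalized Z) {a : MulAut Z} (ha : a ∈ F.autGroup Z)
    (hap : (orderOf a).Coprime p) :
    ∃ β ∈ F.autGroup (climb K T Z), (orderOf β).Coprime p ∧
      ∀ x : Z, ((β ⟨x, le_climb x.2⟩ : ↥(climb K T Z)) : Ω) = ((a x : Z) : Ω) := by
  obtain ⟨f, hf, hfe⟩ := H93.exists_mor_of_aut hn.1 ha
  obtain ⟨g, hg, -, hge⟩ := exists_climb_iso hS hF hT hK hf hn hn
  obtain ⟨b, hb, hbe⟩ := hg.exists_aut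
  have := H96.finite_of_le (climb_le (T := T) hn.1 hK.1)
  have : Finite (MulAut ↥(climb K T Z)) :=
    Finite.of_injective (fun e : MulAut ↥(climb K T Z) => (e : _ → _)) DFunLike.coe_injective
  obtain ⟨m, hm, hme⟩ := H24.Meet.exists_coprime_pow (p := p)
    (fun x : Z => (⟨x, le_climb x.2⟩ : ↥(climb K T Z))) (a := a) (b := b)
    (fun x => Subtype.ext ((hbe _).trans ((hge _ x.2).trans (hfe x)))) hap
  exact ⟨b ^ m, pow_mem hb m, hm, fun x => congrArg Subtype.val (hme x)⟩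

/-- The step is independent of the choices. -/
theorem goodAut_step_iff (hS : IsPGroup p S) (hF : F.IsSaturated p) (hE : E.IsInvariantIn F)
    (hc : ¬ TCentric F T (Z ⊓ T)) (hZc : ZCentric F T Z) (hp : Prime F T Z') {φ : Ω → Ω} (hφ : Mor F Z Z' φ)
    {a : MulAut Z} {β : MulAut ↥(climb T T Z')} (hβF : β ∈ F.autGroup (climb T T Z'))
    (hβ : (orderOf β).Coprime p)
    (he : ∀ x : Z, φ ((a x : Z) : Ω) = ((β ⟨φ x, le_climb (hφ.map_mem x.2)⟩ : ↥(climb T T Z')) : Ω)) :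
    GoodAut p F E Z a ↔ GoodAut p F E (climb T T Z') β := by
  have hT := hE.2.1
  refine ⟨fun h => ?_, fun h => GoodAut.step hc hp hφ h hβ he⟩
  have hac := h.congT hT
  cases h with
  | base hc' _ _ _ _ _ => exact absurd hc' hc
  | @step _ Z₁ _ ψ γ _ hp₁ hψ hg hγ hψe =>
    obtain ⟨ψi, hψi, hψi1, -⟩ := hψ.exists_inv
    obtain ⟨g, hgM, hgZ, hge⟩ := exists_climb_iso hS hF hT hT (hφ.comp hψi) hp₁.1 hp.1
    obtain ⟨γ', hγ'⟩ := exists_conjAut hgM γ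
    have hgood : GoodAut p F E (climb T T Z') γ' := hg.conj hE hgM hγ'
    have hZ'c := hZc.of_mor hφ
    have hM : climb T T Z' ≤ normalizerIn S Z' := climb_le_normalizerIn hp.1.1 hT.1
    have hMS := climb_le (T := T) hp.1.1 hT.1
    have hval : ∀ x : Z, ((γ' ⟨φ x, le_climb (hφ.map_mem x.2)⟩ : ↥(climb T T Z')) : Ω) = φ ((a x : Z) : Ω) := by
      intro x
      have h1 : g (ψ x) = φ x := by rw [hge _ (hψ.map_mem x.2)]; show φ (ψi (ψ x)) = φ x; rw [hψi1 x x.2]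
      have h2 := hγ' ⟨ψ x, le_climb (hψ.map_mem x.2)⟩
      rw [← hψe x, hge _ (hψ.map_mem (a x).2), show φ (ψi (ψ ((a x : Z) : Ω))) = φ ((a x : Z) : Ω) by
        rw [hψi1 _ (a x).2]] at h2
      rw [h2]
      exact congrArg (fun z : ↥(climb T T Z') => ((γ' z : ↥(climb T T Z')) : Ω)) (Subtype.ext h1.symm)
    have hagree : ∀ y : ↥(climb T T Z'), (y : Ω) ∈ Z' → γ' y = β y := fun y hy => by
      obtain ⟨x, hx, hxy⟩ := hφ.surj hy
      rw [show y = ⟨φ x, le_climb (hφ.map_mem hx)⟩ from Subtype.ext hxy.symm]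
      exact Subtype.ext ((hval ⟨x, hx⟩).trans (he ⟨x, hx⟩))
    have := H96.finite_of_le hp.1.1
    have hst : γ' ∈ H35.Meet.stab Z' (climb T T Z') := H35.Meet.mem_stab_of le_climb fun y hy => by
      obtain ⟨x, hx, hxy⟩ := hφ.surj hy
      rw [show y = ⟨φ x, le_climb (hφ.map_mem hx)⟩ from Subtype.ext hxy.symm, hval ⟨x, hx⟩]
      exact hφ.map_mem (a _).2
    have hβc : CongT T _ β := congT_of_sup hT hMS le_climb climb_le_sup hβF fun y hy => by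
      obtain ⟨a', ha'⟩ := exists_conjAut hφ a
      obtain ⟨x, hx, hxy⟩ := hφ.surj hy
      have h1 := CongT.conj hT hφ ha' hac ⟨φ x, hφ.map_mem hx⟩
      rw [← ha' ⟨x, hx⟩, he ⟨x, hx⟩] at h1
      rw [show y = ⟨φ x, le_climb (hφ.map_mem hx)⟩ from Subtype.ext hxy.symm]
      exact h1
    obtain ⟨k, hk, hke⟩ := exists_conj_agree hS hT hZ'c le_climb hM hgood.mem_autGroup hβF hgood.coprime hβ
      (hgood.congT hT) hβc (fun y => (hst y).symm) hagree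
    exact hke ▸ hgood.conj_aut hE hk

/-- In the centric case goodness is read off any subgroup. -/
theorem inE_sup (hS : IsPGroup p S) (hE : E.IsNormalIn F p) (hZY : Z ≤ Y) (hYN : Y ≤ normalizerIn S Z)
    (hc : TCentric F T (Z ⊓ T)) {α : MulAut Y} (hαF : α ∈ F.autGroup Y) (hαp : (orderOf α).Coprime p)
    {a : MulAut Z} (he : ∀ x : Z, ((α ⟨x, hZY x.2⟩ : Y) : Ω) = ((a x : Z) : Ω)) :
    InE E Y α ↔ InE E Z a := by
  obtain ⟨hEs, hF, hI⟩ := id hE.1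
  have hT := hI.2.1
  have hTS := hT.1
  have hYS : Y ≤ S := hYN.trans inf_le_left
  have := H96.finite_of_le hTS
  obtain ⟨g, hg, hge⟩ := H93.exists_mor_of_aut hYS hαF
  have hgZ : Mor F Z Z g := hg.restrict_eq hZY (fun x hx => by
      rw [show g x = _ from hge ⟨x, hZY hx⟩, he ⟨x, hx⟩]; exact Subtype.mem _)
    fun y hy => by
      obtain ⟨x, hx⟩ := a.surjective ⟨y, hy⟩
      exact ⟨x, x.2, by rw [show g x = _ from hge ⟨x, hZY x.2⟩, he, hx]⟩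
  constructor
  · rintro ⟨f, hf, hfe⟩
    obtain ⟨R, -, hfR⟩ := hf.restrict (inf_le_inf_right T hZY)
    have hfg : ∀ x ∈ Z ⊓ T, f x = g x := fun x hx =>
      (hfe ⟨x, hZY hx.1⟩ hx.2).trans (hge ⟨x, hZY hx.1⟩).symm
    have hQQ := mor_inf hT hgZ
    obtain rfl : R = Z ⊓ T := by
      ext y
      constructor
      · intro hy
        obtain ⟨x, hx, rfl⟩ := hfR.surj hy
        rw [hfg x hx]
        exact hQQ.map_mem hx
      · intro hy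
        obtain ⟨x, hx, rfl⟩ := hQQ.surj hy
        rw [← hfg x hx]
        exact hfR.map_mem hx
    exact ⟨f, hfR, fun x hx => (hfe ⟨x, hZY x.2⟩ hx).trans (he x)⟩
  · rintro ⟨f, hf, hfe⟩
    have hQE : E.IsCentric (Z ⊓ T) := by
      refine ⟨hc.1, fun Q' hQ' => ?_⟩
      obtain ⟨φ, hφ, hr⟩ := hQ'
      exact hc.2 Q' ⟨φ, hI.1 _ hφ, hr⟩
    have hrec : E.IsReceptive (Z ⊓ T) :=
      H94.fullyCentralized_receptive (hS.to_le hTS) hEs (H94.centric_isFullyCentralized hQE)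
    have hQY : Z ⊓ T ≤ Y ⊓ T := inf_le_inf_right T hZY
    have hsup : (Z ⊓ T) ⊔ (Y ⊓ T) = Y ⊓ T := sup_eq_right.2 hQY
    have hM : Y ⊓ T ≤ normalizerIn T (Z ⊓ T) := by
      intro y hy
      have := H96.finite_of_le (inf_le_left.trans (hZY.trans hYS) : Z ⊓ T ≤ S)
      refine ⟨hy.2, H94.mem_normalizer_of_forall_conj_mem fun q hq => ⟨H93.mem_normalizerIn_conj (hYN hy.1) hq.1, ?_⟩⟩
      exact H93.StronglyClosed.conj_mem hT (hYS hy.1) hq.2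
    have hgV : Mor F ((Z ⊓ T) ⊔ (Y ⊓ T)) ((Z ⊓ T) ⊔ (Y ⊓ T)) g := by rw [hsup]; exact mor_inf hT hg
    obtain ⟨αV, hαV, hαVe⟩ := hgV.exists_aut
    have hαVp : (orderOf αV).Coprime p :=
      coprime_of_intertwine (f := fun x : ↥((Z ⊓ T) ⊔ (Y ⊓ T)) => (⟨x, (hsup.le x.2).1⟩ : Y))
        (fun x y e => Subtype.ext (congrArg (fun z : Y => (z : Ω)) e))
        (fun x => Subtype.ext ((hge _).symm.trans (hαVe x).symm)) hαp
    have hfQ : Mor E (Z ⊓ T) (Z ⊓ T) g := hf.congr fun x hx => by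
      rw [hfe ⟨x, hx.1⟩ hx.2, ← he ⟨x, hx.1⟩]
      exact (hge ⟨x, hZY hx.1⟩).symm
    have hres := H24.Meet.mor_of_ext hS hE.1 hrec hQE hM hgV hαVe hαVp hfQ
    rw [hsup] at hres
    exact ⟨g, hres, fun x hx => hge x⟩

/-- Good automorphisms restrict and lift along normalized subgroups. -/
theorem goodAut_restrict_iff (hS : IsPGroup p S) (hE : E.IsNormalIn F p) :
    ∀ (Z : Subgroup Ω), ZCentric F T Z → ∀ (Y : Subgroup Ω) (hZY : Z ≤ Y), Y ≤ S → Y ≤ Z ⊔ T →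
      ∀ α : MulAut Y, α ∈ F.autGroup Y → (orderOf α).Coprime p → ∀ a : MulAut Z,
        (∀ x : Z, ((α ⟨x, hZY x.2⟩ : Y) : Ω) = ((a x : Z) : Ω)) →
        (GoodAut p F E Y α ↔ GoodAut p F E Z a) := by
  obtain ⟨hEs, hF, hI⟩ := id hE.1
  have hT := hI.2.1
  have := H96.finite_of_le hT.1
  intro Z
  induction hn : Nat.card T - Nat.card ↥(Z ⊓ T) using Nat.strong_induction_on generalizing Z with
  | _ n ih =>
  intro hZc
  have hrec : ∀ Z₂ : Subgroup Ω, Nat.card ↥(Z ⊓ T) < Nat.card ↥(Z₂ ⊓ T) → ZCentric F T Z₂ →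
      ∀ (Y : Subgroup Ω) (hZY : Z₂ ≤ Y), Y ≤ S → Y ≤ Z₂ ⊔ T → ∀ α : MulAut Y, α ∈ F.autGroup Y →
      (orderOf α).Coprime p → ∀ a : MulAut Z₂, (∀ x : Z₂, ((α ⟨x, hZY x.2⟩ : Y) : Ω) = ((a x : Z₂) : Ω)) →
        (GoodAut p F E Y α ↔ GoodAut p F E Z₂ a) := fun Z₂ hlt => by
    have := Subgroup.card_le_of_le (inf_le_right : Z₂ ⊓ T ≤ T)
    exact ih _ (by omega) Z₂ rfl
  intro Y
  induction hm : Nat.card Y using Nat.strong_induction_on generalizing Y with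
  | _ m ihY =>
  intro hZY hYS hYT α hαF hαp a he
  have hZS : Z ≤ S := hZY.trans hYS
  have := H96.finite_of_le hZS
  have := H96.finite_of_le hYS
  rcases eq_or_lt_of_le hZY with rfl | hlt
  · rw [show α = a from MulEquiv.ext fun x => Subtype.ext (he x)]
  have hcard : Nat.card ↥(Z ⊓ T) < Nat.card ↥(Y ⊓ T) :=
    H93.card_lt_card_of_lt (inf_lt_of_sup hT hYS hlt hYT) (inf_le_left.trans hYS)
  obtain ⟨fα, hfα, hfαe⟩ := H93.exists_mor_of_aut hYS hαF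
  have hfZ : Mor F Z Z fα := by
    refine hfα.restrict_eq hZY (fun x hx => ?_) fun y hy => ?_
    · rw [show fα x = _ from hfαe ⟨x, hZY hx⟩, he ⟨x, hx⟩]; exact Subtype.mem _
    · obtain ⟨x, hx⟩ := a.surjective ⟨y, hy⟩
      exact ⟨x, x.2, by rw [show fα x = _ from hfαe ⟨x, hZY x.2⟩, he, hx]⟩
  by_cases hYN : Y ≤ Subgroup.normalizer (Z : Set Ω)
  swap
  · -- pass through the normalizer
    obtain ⟨Y₀, hY₀⟩ : ∃ Y₀, Y₀ = Y ⊓ Subgroup.normalizer (Z : Set Ω) := ⟨_, rfl⟩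
    have hZY₀ : Z < Y₀ := hY₀ ▸ H93.lt_inf_normalizer (H93.isPGroup_of_le hS hYS) hlt
    have hY₀Y : Y₀ ≤ Y := hY₀.le.trans inf_le_left
    have hY₀lt : Y₀ < Y := lt_of_le_of_ne hY₀Y fun e => hYN (e.ge.trans (hY₀.le.trans inf_le_right))
    obtain ⟨R, -, hfR⟩ := hfα.restrict hY₀Y
    have hR : R = Y₀ := by
      have := H96.finite_of_le (hY₀Y.trans hYS)
      refine Subgroup.eq_of_le_of_card_ge (fun y hy => ?_) hfR.card_eq.le
      obtain ⟨x, hx, rfl⟩ := hfR.surj hy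
      rw [hY₀] at hx ⊢
      exact ⟨hfα.map_mem hx.1, (hfα.map_mem_normalizerIn hfZ hZY hx.1 hx.2).2⟩
    rw [hR] at hfR
    obtain ⟨b, hb, hbe⟩ := hfR.exists_aut
    have hbv : ∀ x : Y₀, ((α ⟨x, hY₀Y x.2⟩ : Y) : Ω) = ((b x : Y₀) : Ω) := fun x =>
      (hfαe ⟨x, hY₀Y x.2⟩).symm.trans (hbe x).symm
    have hbp : (orderOf b).Coprime p :=
      coprime_of_intertwine (f := fun x : Y₀ => (⟨x, hY₀Y x.2⟩ : Y))
        (fun x y e => Subtype.ext (congrArg (fun z : Y => (z : Ω)) e)) (fun x => Subtype.ext (hbv x)) hαp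
    have hcard₀ : Nat.card ↥(Z ⊓ T) < Nat.card ↥(Y₀ ⊓ T) :=
      H93.card_lt_card_of_lt (inf_lt_of_sup hT (hY₀Y.trans hYS) hZY₀ (hY₀Y.trans hYT))
        (inf_le_left.trans (hY₀Y.trans hYS))
    rw [hrec Y₀ hcard₀ (hZc.mono hZY₀.le (hY₀Y.trans hYS)) Y hY₀Y hYS (hYT.trans (sup_le_sup_right hZY₀.le T))
      α hαF hαp b hbv]
    exact ihY _ (hm ▸ H93.card_lt_card_of_lt hY₀lt hYS) Y₀ rfl hZY₀.le (hY₀Y.trans hYS) (hY₀Y.trans hYT) b hb hbp a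
      fun x => (hbv ⟨x, hZY₀.le x.2⟩).symm.trans (he x)
  have hYN' : Y ≤ normalizerIn S Z := fun y hy => ⟨hYS hy, hYN hy⟩
  have hap : (orderOf a).Coprime p :=
    coprime_of_intertwine (f := fun x : Z => (⟨x, hZY x.2⟩ : Y))
      (fun x y e => Subtype.ext (congrArg (fun z : Y => (z : Ω)) e)) (fun x => Subtype.ext (he x)) hαp
  have haF : a ∈ F.autGroup Z := by
    obtain ⟨b, hb, hbe⟩ := hfZ.exists_aut
    rwa [show a = b from MulEquiv.ext fun x => Subtype.ext (by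
      rw [hbe, show fα x = _ from hfαe ⟨x, hZY x.2⟩, he])]
  -- congruence is the same for both
  have hcong : CongT T Z a ↔ CongT T Y α := by
    refine ⟨fun h => congT_of_sup hT hYS hZY hYT hαF fun x hx => ?_, fun h x => ?_⟩
    · rw [he ⟨x, hx⟩]; exact h ⟨x, hx⟩
    · rw [← he x]; exact h ⟨x, hZY x.2⟩
  suffices key : CongT T Z a → (GoodAut p F E Y α ↔ GoodAut p F E Z a) from
    ⟨fun h => (key (hcong.2 (h.congT hT))).1 h, fun h => (key (h.congT hT)).2 h⟩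
  intro hac
  have hαc := hcong.1 hac
  by_cases hc : TCentric F T (Z ⊓ T)
  · have hcY : TCentric F T (Y ⊓ T) := hc.mono (inf_le_inf_right T hZY) inf_le_right
    constructor
    · intro h
      cases h with
      | base _ _ _ _ _ hin => exact GoodAut.base hc haF hZS hac hap ((inE_sup hS hE hZY hYN' hc hαF hαp he).1 hin)
      | step hc' _ _ _ _ _ => exact absurd hcY hc'
    · intro h
      cases h with
      | base _ _ _ _ _ hin => exact GoodAut.base hcY hαF hYS hαc hαp ((inE_sup hS hE hZY hYN' hc hαF hαp he).2 hin)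
      | step hc' _ _ _ _ _ => exact absurd hc hc'
  -- a fully normalized conjugate at which the two enlargements meet
  obtain ⟨Z₀, φ₁, hφ₁, hp₀⟩ := exists_prime hS hF hT hZS
  have hZ₀S := hp₀.1.1
  have := H96.finite_of_le hZ₀S
  obtain ⟨ψ₁, hψ₁, hψ₁r, hψ₁v⟩ := id hφ₁
  obtain ⟨e, hee⟩ : ∃ e : Z ≃* Z₀, ∀ x : Z, ((e x : Z₀) : Ω) = φ₁ x :=
    ⟨H93.homEquiv ψ₁ (F.injective_of_mem hψ₁) hψ₁r, fun x => hψ₁v x⟩
  obtain ⟨c, hcdef⟩ : ∃ c : MulAut Z →* MulAut Z₀, c = (MulAut.congr e).toMonoidHom := ⟨_, rfl⟩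
  have hcv : ∀ (b : MulAut Z) (x : Z), φ₁ ((b x : Z) : Ω) = (((c b) ⟨φ₁ x, hφ₁.map_mem x.2⟩ : Z₀) : Ω) := by
    intro b x
    subst hcdef
    show _ = ((e (b (e.symm ⟨φ₁ x, _⟩)) : Z₀) : Ω)
    rw [show (⟨φ₁ x, hφ₁.map_mem x.2⟩ : Z₀) = e x from Subtype.ext (hee x).symm, e.symm_apply_apply, hee]
  have hcF : ∀ b ∈ F.autGroup Z, c b ∈ F.autGroup Z₀ := by
    intro b hb
    obtain ⟨f, hf, hfe⟩ := H93.exists_mor_of_aut hZS hb
    obtain ⟨φi, hφi, hφi1, -⟩ := hφ₁.exists_inv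
    obtain ⟨b', hb', hb'e⟩ := ((hφ₁.comp hf).comp hφi).exists_aut
    rwa [show c b = b' from MulEquiv.ext fun y => Subtype.ext (by
      obtain ⟨x, hx, hxy⟩ := hφ₁.surj y.2
      obtain ⟨y, hy⟩ := y
      simp only at hxy
      subst hxy
      rw [hb'e, ← hcv b ⟨x, hx⟩]
      show φ₁ _ = φ₁ (f (φi (φ₁ x)))
      rw [hφi1 x hx, show f x = _ from hfe ⟨x, hx⟩])]
  obtain ⟨P', hP'⟩ : ∃ P', P' = (autInducedBy (Y ⊓ T) Z).map c ⊔ stabAut F T Z₀ := ⟨_, rfl⟩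
  have hindF : autInducedBy (Y ⊓ T) Z ≤ F.autGroup Z :=
    (H93.autInducedBy_mono (inf_le_left.trans hYS) Z).trans (H93.autInducedBy_le_autGroup F hZS)
  have hBF : (autInducedBy (Y ⊓ T) Z).map c ≤ F.autGroup Z₀ := by
    rintro _ ⟨b, hb, rfl⟩
    exact hcF b (hindF hb)
  have hstn : ∀ u ∈ F.autGroup Z₀, ∀ k ∈ stabAut F T Z₀, u * k * u⁻¹ ∈ stabAut F T Z₀ := by
    intro u hu k hk
    obtain ⟨f, hf, hfe⟩ := H93.exists_mor_of_aut hZ₀S hu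
    refine stabAut_conj hT hf (fun x => ?_) hk
    rw [hfe, show (⟨f x, hf.map_mem x.2⟩ : Z₀) = u x from Subtype.ext (hfe x)]
    simp
  have hP'F : P' ≤ F.autGroup Z₀ := hP' ▸ sup_le hBF stabAut_le
  have hP'p : IsPGroup p P' := by
    rw [hP']
    refine (((H94.isPGroup_autInducedBy (hS.to_le (inf_le_left.trans hYS))).map c)).to_sup_of_normal_right'
      (isPGroup_stabAut hS hT hZ₀S) ?_
    intro u hu
    refine Subgroup.mem_normalizer_iff.2 fun k => ⟨fun hk => hstn u (hBF hu) k hk, fun hk => ?_⟩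
    have := hstn u⁻¹ (inv_mem (hBF hu)) _ hk
    simpa [mul_assoc] using this
  obtain ⟨a₁, ha₁⟩ : ∃ a₁, a₁ = c a := ⟨_, rfl⟩
  have ha₁F : a₁ ∈ F.autGroup Z₀ := ha₁ ▸ hcF a haF
  have hnormP : ∀ k ∈ P', a₁ * k * a₁⁻¹ ∈ P' := by
    have hle : P'.map (MulAut.conj a₁).toMonoidHom ≤ P' := by
      rw [hP', Subgroup.map_sup]
      refine sup_le (le_sup_of_le_left ?_) (le_sup_of_le_right ?_)
      · rintro _ ⟨_, ⟨b, hb, rfl⟩, rfl⟩
        obtain ⟨v, hv, hve⟩ := H96.mem_autInducedBy.1 hb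
        refine ⟨a * b * a⁻¹, H96.mem_autInducedBy.2 ⟨fα v, (mor_inf hT hfα).map_mem hv, fun x => ?_⟩, by
          simp [ha₁]⟩
        obtain ⟨x, rfl⟩ := a.surjective x
        show ((a (b (a.symm (a x))) : Z) : Ω) = _
        rw [a.symm_apply_apply, ← he, ← he, ← hfαe, ← hfαe]
        show fα ((b x : Z) : Ω) = _
        rw [hve, hfα.map_conj hv.1 (hZY x.2)]
      · rintro _ ⟨k, hk, rfl⟩
        exact hstn a₁ ha₁F k hk
    exact fun k hk => hle ⟨k, hk, rfl⟩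
  obtain ⟨β, hβ, hβI⟩ := H93.exists_conj_le_autInducedBy (H94.fullyNormalized_spec hS hF hp₀.1).1 hP'F hP'p
  obtain ⟨fβ, hfβ, hfβe⟩ := H93.exists_mor_of_aut hZ₀S hβ
  obtain ⟨I, hI'⟩ : ∃ I, I = P'.map (MulAut.conj β).toMonoidHom := ⟨_, rfl⟩
  have hIS : ∀ k ∈ I, k ∈ autInducedBy S Z₀ := by
    rw [hI']; rintro _ ⟨k, hk, rfl⟩; exact hβI k hk
  have hstI : stabAut F T Z₀ ≤ I := fun k hk => by
    rw [hI']
    exact ⟨β⁻¹ * k * β, hP' ▸ Subgroup.mem_sup_right (by simpa using hstn β⁻¹ (inv_mem hβ) k hk),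
      by simp [mul_assoc]⟩
  obtain ⟨a₀, ha₀⟩ : ∃ a₀, a₀ = β * a₁ * β⁻¹ := ⟨_, rfl⟩
  have ha₀I : ∀ k ∈ I, a₀ * k * a₀⁻¹ ∈ I := by
    rw [hI']; rintro _ ⟨k, hk, rfl⟩
    exact ⟨a₁ * k * a₁⁻¹, hnormP k hk, by simp [ha₀, mul_assoc]⟩
  -- the map from `Z` and its value on induced automorphisms
  obtain ⟨φ₀, hφ₀def⟩ : ∃ φ₀ : Ω → Ω, φ₀ = fun x => fβ (φ₁ x) := ⟨_, rfl⟩
  have hφ₀ : Mor F Z Z₀ φ₀ := hφ₀def ▸ hfβ.comp hφ₁
  have hφ₀v : ∀ (b : MulAut Z) (x : Z),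
      φ₀ ((b x : Z) : Ω) = (((β * c b * β⁻¹) ⟨φ₀ x, hφ₀.map_mem x.2⟩ : Z₀) : Ω) := by
    intro b x
    subst hφ₀def
    show fβ _ = _
    have h1 : (⟨fβ (φ₁ x), hφ₀.map_mem x.2⟩ : Z₀) = β ⟨φ₁ x, hφ₁.map_mem x.2⟩ :=
      Subtype.ext (hfβe ⟨φ₁ x, hφ₁.map_mem x.2⟩)
    rw [h1, MulAut.mul_apply, MulAut.mul_apply, MulAut.inv_apply_self, hcv b x]
    exact hfβe _
  have ha₀e : ∀ x : Z, φ₀ ((a x : Z) : Ω) = ((a₀ ⟨φ₀ x, hφ₀.map_mem x.2⟩ : Z₀) : Ω) := fun x => by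
    rw [hφ₀v, ha₀, ha₁]
  have ha₀F : a₀ ∈ F.autGroup Z₀ := ha₀ ▸ mul_mem (mul_mem hβ ha₁F) (inv_mem hβ)
  have ha₀p : (orderOf a₀).Coprime p := H24.Meet.coprime_conjAut hφ₀ ha₀e hap
  -- the common enlargement
  let Jt : Subgroup Ω :=
    { carrier := {t | t ∈ normalizerIn T Z₀ ∧ ∃ k ∈ I, ∀ z : Z₀, ((k z : Z₀) : Ω) = t * z * t⁻¹}
      one_mem' := ⟨Subgroup.one_mem _, 1, I.one_mem, fun z => by simp⟩
      mul_mem' := by
        rintro u v ⟨hu, k, hk, hke⟩ ⟨hv, l, hl, hle⟩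
        refine ⟨Subgroup.mul_mem _ hu hv, k * l, I.mul_mem hk hl, fun z => ?_⟩
        rw [MulAut.mul_apply, hke, hle]
        group
      inv_mem' := by
        rintro u ⟨hu, k, hk, hke⟩
        refine ⟨Subgroup.inv_mem _ hu, k⁻¹, I.inv_mem hk, fun z => ?_⟩
        have h := hke (k⁻¹ z)
        rw [MulAut.apply_inv_self] at h
        rw [h]
        group }
  obtain ⟨J, hJ⟩ : ∃ J, J = Z₀ ⊔ Jt := ⟨_, rfl⟩
  have hJN : J ≤ normalizerIn S Z₀ :=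
    hJ ▸ sup_le (H93.le_normalizerIn hZ₀S) fun t ht => ⟨hT.1 ht.1.1, ht.1.2⟩
  have hJS : J ≤ S := hJN.trans inf_le_left
  have := H96.finite_of_le hJS
  have hJT : J ≤ Z₀ ⊔ T := hJ ▸ sup_le le_sup_left fun t ht => Subgroup.mem_sup_right ht.1.1
  have hZ₀J : Z₀ ≤ J := hJ ▸ le_sup_left
  have hJtJ : Jt ≤ J := hJ ▸ le_sup_right
  have hclimb : climb T T Z₀ ≤ J := sup_le hZ₀J fun t ht => by
    obtain ⟨k, hk, hke⟩ := exists_stabAut_of_mem (F := F) hZ₀S hT.1 ht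
    exact hJtJ ⟨ht.1, k, hstI hk, hke⟩
  -- images inside `J`
  have hin : ∀ {R R' : Subgroup Ω} {g : Ω → Ω} {V : Subgroup Ω}, Mor F R R' g → V ≤ R → V ≤ T →
      (∀ v ∈ V, g v ∈ normalizerIn S Z₀ ∧ ∃ k ∈ I, ∀ z : Z₀, ((k z : Z₀) : Ω) = g v * z * (g v)⁻¹) →
      ∀ v ∈ V, g v ∈ J := by
    intro R R' g V hg hVR hVT h v hv
    obtain ⟨ψ, hψ, -, hψv⟩ := id hg
    refine hJtJ ⟨⟨?_, (h v hv).1.2⟩, (h v hv).2⟩
    rw [← hψv ⟨v, hVR hv⟩]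
    exact H93.StronglyClosed.apply_mem hT hψ _ (hVT hv)
  have himg : ∀ {R R' Z₁ : Subgroup Ω} {g : Ω → Ω} {V : Subgroup Ω}, Mor F R R' g → Z₁ ⊔ V = R →
      (∀ z ∈ Z₁, g z ∈ J) → (∀ v ∈ V, g v ∈ J) → R' ≤ J := by
    intro R R' Z₁ g V hg hR hz hv
    obtain ⟨ψ, hψ, -, hψv⟩ := id hg
    subst hR
    have hle : Z₁ ⊔ V ≤ (J.comap ψ).map (Z₁ ⊔ V).subtype := sup_le
      (fun x hx => ⟨⟨x, Subgroup.mem_sup_left hx⟩, Subgroup.mem_comap.2 (by rw [hψv]; exact hz x hx), rfl⟩)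
      fun x hx => ⟨⟨x, Subgroup.mem_sup_right hx⟩, Subgroup.mem_comap.2 (by rw [hψv]; exact hv x hx), rfl⟩
    intro y hy
    obtain ⟨x, hx, rfl⟩ := hg.surj hy
    obtain ⟨w, hw, rfl⟩ := hle hx
    exact hψv w ▸ hw
  obtain ⟨fa, hfa, hfae⟩ := H93.exists_mor_of_aut hZ₀S ha₀F
  obtain ⟨g, J', hg, hgv, hgZ⟩ := hfa.extend (M := Jt) (H94.fullyNormalized_spec hS hF hp₀.1).2 fun m hm => by
    refine ⟨⟨hT.1 hm.1.1, hm.1.2⟩, ?_⟩
    obtain ⟨-, k, hk, hke⟩ := hm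
    obtain ⟨t, ht, hte⟩ := H96.mem_autInducedBy.1 (hIS _ (ha₀I k hk))
    refine ⟨t, ht, fun x hx => ?_⟩
    rw [← hke ⟨x, hx⟩, hfae, show fa x = _ from hfae ⟨x, hx⟩, ← hte]
    simp
  rw [← hJ] at hg
  obtain rfl : J' = J := by
    refine Subgroup.eq_of_le_of_card_ge (himg hg hJ.symm (fun z hz => hZ₀J (hgZ.map_mem hz))
      (hin hg hJtJ (fun t ht => ht.1.1) fun v hv => ?_)) hg.card_eq.le
    obtain ⟨hvN, k, hk, hke⟩ := id hv
    refine ⟨hg.map_mem_normalizerIn hgZ hZ₀J (hJtJ hv) hvN.2, a₀ * k * a₀⁻¹, ha₀I k hk, fun z => ?_⟩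
    obtain ⟨x, rfl⟩ := a₀.surjective z
    rw [MulAut.mul_apply, MulAut.mul_apply, MulAut.inv_apply_self, ← hfae, ← hfae, ← hgv _ x.2,
      ← hgv _ (k x).2, hke, hg.map_conj (hJtJ hv) (hZ₀J x.2)]
  obtain ⟨γ₀, hγ₀, hγ₀e⟩ := hg.exists_aut
  have : Finite (MulAut J') := Finite.of_injective (fun e : MulAut J' => (e : _ → _)) DFunLike.coe_injective
  obtain ⟨m', hγp, hγe⟩ := H24.Meet.exists_coprime_pow (p := p) (fun x : Z₀ => (⟨x, hZ₀J x.2⟩ : J'))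
    (a := a₀) (b := γ₀) (fun x => Subtype.ext ((hγ₀e _).trans ((hgv x x.2).trans (hfae x)))) ha₀p
  obtain ⟨γ, hγdef⟩ : ∃ γ, γ = γ₀ ^ m' := ⟨_, rfl⟩
  rw [← hγdef] at hγp hγe
  have hγF : γ ∈ F.autGroup J' := hγdef ▸ pow_mem hγ₀ m'
  obtain ⟨h', hh', hh'e⟩ := H93.exists_mor_of_aut hJS hγF
  have hhZ : ∀ z : Z₀, h' z = ((a₀ z : Z₀) : Ω) := fun z =>
    (hh'e ⟨z, hZ₀J z.2⟩).trans (congrArg Subtype.val (hγe z))
  have hh'Z : Mor F Z₀ Z₀ h' := hh'.restrict_eq hZ₀J (fun x hx => by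
      rw [show h' x = _ from hhZ ⟨x, hx⟩]; exact Subtype.mem _)
    fun y hy => ⟨_, (a₀⁻¹ ⟨y, hy⟩).2, by rw [hhZ, MulAut.apply_inv_self]⟩
  -- the image of `Y`
  have hYeq := eq_sup_inf hT hYS hZY hYT
  obtain ⟨π, Y', hπ, hπv, hπZ⟩ := hφ₀.extend (M := Y ⊓ T) (H94.fullyNormalized_spec hS hF hp₀.1).2 fun v hv => by
    refine ⟨hYN' hv.1, ?_⟩
    obtain ⟨b, hb, hbe⟩ := H94.exists_autInducedBy (P := Z) (K := Y ⊓ T) hv (hYN hv.1)
    have hk : β * c b * β⁻¹ ∈ I := hI' ▸ ⟨c b, hP' ▸ Subgroup.mem_sup_left ⟨b, hb, rfl⟩, rfl⟩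
    obtain ⟨t, ht, hte⟩ := H96.mem_autInducedBy.1 (hIS _ hk)
    exact ⟨t, ht, fun x hx => by rw [← hbe ⟨x, hx⟩, hφ₀v, hte]⟩
  rw [hYeq] at hπ
  have hY'J : Y' ≤ J' := by
    refine himg hπ hYeq (fun z hz => hZ₀J (hπZ.map_mem hz)) (hin hπ inf_le_left inf_le_right fun v hv => ?_)
    refine ⟨hπ.map_mem_normalizerIn hπZ hZY hv.1 (hYN hv.1), ?_⟩
    obtain ⟨b, hb, hbe⟩ := H94.exists_autInducedBy (P := Z) (K := Y ⊓ T) hv (hYN hv.1)
    refine ⟨β * c b * β⁻¹, hI' ▸ ⟨c b, hP' ▸ Subgroup.mem_sup_left ⟨b, hb, rfl⟩, rfl⟩, fun z => ?_⟩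
    obtain ⟨x, hx, hxz⟩ := hφ₀.surj z.2
    rw [show z = ⟨φ₀ x, hφ₀.map_mem hx⟩ from Subtype.ext hxz.symm, ← hφ₀v b ⟨x, hx⟩, hbe]
    show φ₀ (v * x * v⁻¹) = π v * φ₀ x * (π v)⁻¹
    rw [← hπv _ (H93.mem_normalizerIn_conj (hYN' hv.1) hx), hπ.map_conj hv.1 (hZY hx), hπv _ hx]
  have hY'S : Y' ≤ S := hπ.le_right
  have := H96.finite_of_le hY'S
  have hZ₀Y' : Z₀ ≤ Y' := fun z hz => by
    obtain ⟨x, hx, rfl⟩ := hπZ.surj hz
    exact hπ.map_mem (hZY hx)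
  have hY'N : Y' ≤ normalizerIn S Z₀ := hY'J.trans hJN
  have hY'T : Y' ≤ Z₀ ⊔ T := hY'J.trans hJT
  obtain ⟨α', hα'⟩ := exists_conjAut hπ α
  have hiff₁ : GoodAut p F E Y α ↔ GoodAut p F E Y' α' := by
    refine ⟨fun h => h.conj hI hπ hα', fun h => ?_⟩
    obtain ⟨πi, hπi, hπi1, -⟩ := hπ.exists_inv
    refine h.conj hI hπi fun y => ?_
    obtain ⟨x, hx, hxy⟩ := hπ.surj y.2
    obtain ⟨y, hy⟩ := y
    simp only at hxy
    subst hxy
    rw [← hα' ⟨x, hx⟩, hπi1 _ (α _).2]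
    exact congrArg (fun z : Y => ((α z : Y) : Ω)) (Subtype.ext (hπi1 x hx).symm)
  have hα'F : α' ∈ F.autGroup Y' := by
    obtain ⟨πi, hπi, hπi1, -⟩ := hπ.exists_inv
    obtain ⟨b, hb, hbe⟩ := ((hπ.comp hfα).comp hπi).exists_aut
    rwa [show α' = b from MulEquiv.ext fun y => Subtype.ext (by
      obtain ⟨x, hx, hxy⟩ := hπ.surj y.2
      obtain ⟨y, hy⟩ := y
      simp only at hxy
      subst hxy
      rw [hbe, ← hα' ⟨x, hx⟩]
      show π _ = π (fα (πi (π x)))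
      rw [hπi1 x hx, show fα x = _ from hfαe ⟨x, hx⟩])]
  have hα'p : (orderOf α').Coprime p := H24.Meet.coprime_conjAut hπ hα' hαp
  have hα'c : CongT T Y' α' := CongT.conj hT hπ hα' hαc
  have hα'Z : ∀ y : Y', (y : Ω) ∈ Z₀ → ((α' y : Y') : Ω) = h' y := fun y hy => by
    obtain ⟨x, hx, hxy⟩ := hπZ.surj hy
    rw [show y = ⟨π x, hπ.map_mem (hZY hx)⟩ from Subtype.ext hxy.symm, ← hα' ⟨x, hZY hx⟩, he ⟨x, hx⟩,
      hπv _ (a ⟨x, hx⟩).2, ha₀e ⟨x, hx⟩]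
    show _ = h' (π x)
    rw [show h' (π x) = _ from hhZ ⟨π x, hπZ.map_mem hx⟩]
    exact congrArg (fun z : Z₀ => ((a₀ z : Z₀) : Ω)) (Subtype.ext (hπv x hx).symm)
  -- the automorphism of `J` stabilizes the image of `Y`
  have hγc : CongT T J' γ := congT_of_sup hT hJS hZ₀J hJT hγF fun x hx => by
    rw [← hh'e x, show h' x = _ from hhZ ⟨x, hx⟩]
    exact CongT.conj hT hφ₀ ha₀e hac ⟨x, hx⟩
  have hZ₀c := hZc.of_mor hφ₀
  obtain ⟨fα', hfα', hfα'e⟩ := H93.exists_mor_of_aut hY'S hα'F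
  have hstab : ∀ y ∈ Y', h' y ∈ Y' := by
    intro y hy
    have hd : (fα' y)⁻¹ * h' y ∈ Z₀ := by
      refine hZ₀c.2 Z₀ (H93.isConj_refl F hZ₀S) (H93.mem_centralizerIn.2 ⟨?_, fun z hz => ?_⟩)
      · have h1 : y⁻¹ * fα' y ∈ T := by rw [hfα'e ⟨y, hy⟩]; exact hα'c ⟨y, hy⟩
        have h2 : y⁻¹ * h' y ∈ T := by rw [hh'e ⟨y, hY'J hy⟩]; exact hγc ⟨y, hY'J hy⟩
        have h3 := T.mul_mem (T.inv_mem h1) h2
        convert h3 using 1
        group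
      · obtain ⟨w, hw, hwz⟩ := hh'Z.surj hz
        have hyw : y * w * y⁻¹ ∈ Z₀ := H93.mem_normalizerIn_conj (hY'N hy) hw
        have e1 : fα' y * z * (fα' y)⁻¹ = h' y * z * (h' y)⁻¹ := by
          rw [← hwz, ← hh'.map_conj (hY'J hy) (hZ₀J hw)]
          conv_lhs => rw [← hα'Z ⟨w, hZ₀Y' hw⟩ hw, ← hfα'e ⟨w, hZ₀Y' hw⟩, ← hfα'.map_conj hy (hZ₀Y' hw),
            hfα'e ⟨_, hZ₀Y' hyw⟩, hα'Z ⟨_, hZ₀Y' hyw⟩ hyw]
        calc (fα' y)⁻¹ * h' y * z * ((fα' y)⁻¹ * h' y)⁻¹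
            = (fα' y)⁻¹ * (h' y * z * (h' y)⁻¹) * fα' y := by group
          _ = z := by rw [← e1]; group
    have := Y'.mul_mem (hfα'.map_mem hy) (hZ₀Y' hd)
    rwa [mul_inv_cancel_left] at this
  obtain ⟨R, -, hhR⟩ := hh'.restrict hY'J
  obtain rfl : R = Y' := Subgroup.eq_of_le_of_card_ge (fun y hy => by
    obtain ⟨x, hx, rfl⟩ := hhR.surj hy
    exact hstab x hx) hhR.card_eq.le
  obtain ⟨δ, hδ, hδe⟩ := hhR.exists_aut
  have hδp : (orderOf δ).Coprime p :=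
    coprime_of_intertwine (f := fun x : R => (⟨x, hY'J x.2⟩ : J'))
      (fun x y e => Subtype.ext (congrArg (fun z : J' => (z : Ω)) e))
      (fun x => Subtype.ext ((hh'e _).symm.trans (hδe x).symm)) hγp
  have hδc : CongT T R δ := fun y => by
    rw [hδe, show h' y = _ from hh'e ⟨y, hY'J y.2⟩]
    exact hγc ⟨y, hY'J y.2⟩
  have hδZ : δ ∈ H35.Meet.stab Z₀ R := H35.Meet.mem_stab_of hZ₀Y' fun x hx => by
    rw [hδe]; exact hh'Z.map_mem hx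
  obtain ⟨k, hk, hkδ⟩ := exists_conj_agree hS hT hZ₀c hZ₀Y' hY'N hδ hα'F hδp hα'p hδc hα'c
    (fun x => (hδZ x).symm) fun x hx => Subtype.ext ((hδe x).trans (hα'Z x hx).symm)
  have hcardY' : Nat.card ↥(Z ⊓ T) < Nat.card ↥(R ⊓ T) := hcard.trans_le (mor_inf hT hπ).card_eq.le
  have hiff₂ : GoodAut p F E R α' ↔ GoodAut p F E J' γ := by
    rw [hkδ, goodAut_conj_aut_iff hI hk]
    exact (hrec R hcardY' (hZ₀c.mono hZ₀Y' hY'S) J' hY'J hJS (hJT.trans (sup_le_sup_right hZ₀Y' T))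
      γ hγF hγp δ fun x => (hh'e ⟨x, hY'J x.2⟩).symm.trans (hδe x).symm).symm
  -- the automorphism of the canonical enlargement
  obtain ⟨M, -, hhM⟩ := hh'.restrict hclimb
  have hMle : M ≤ climb T T Z₀ := by
    intro y hy
    obtain ⟨x, hx, rfl⟩ := hhM.surj hy
    obtain ⟨g₁, M₁, hg₁, hM₁, -, hg₁e⟩ := exists_climb_map hS hF hT hT hh'Z hp₀.1
    -- compare the two extensions by their action on `Z₀`
    have hd : (g₁ x)⁻¹ * h' x ∈ Z₀ := by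
      have hxN := climb_le_normalizerIn (T := T) hZ₀S hT.1 hx
      have hxJ := hclimb hx
      refine hZ₀c.2 Z₀ (H93.isConj_refl F hZ₀S) (H93.mem_centralizerIn.2 ⟨?_, fun z hz => ?_⟩)
      · have h2 : x⁻¹ * h' x ∈ T := by rw [hh'e ⟨x, hxJ⟩]; exact hγc ⟨x, hxJ⟩
        obtain ⟨b₁, hb₁, hb₁e⟩ : ∃ b₁ ∈ F.autGroup (climb T T Z₀),
            ∀ y : ↥(climb T T Z₀), ((b₁ y : ↥(climb T T Z₀)) : Ω) = g₁ y := by
          have := H96.finite_of_le (climb_le (T := T) hZ₀S hT.1)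
          obtain rfl : M₁ = climb T T Z₀ := Subgroup.eq_of_le_of_card_ge hM₁ hg₁.card_eq.le
          exact hg₁.exists_aut
        have h1 : x⁻¹ * g₁ x ∈ T := by
          rw [← hb₁e ⟨x, hx⟩]
          refine congT_of_sup hT (climb_le hZ₀S hT.1) le_climb climb_le_sup hb₁ (fun y hy => ?_) ⟨x, hx⟩
          rw [hb₁e, hg₁e _ hy, show h' (y : Ω) = _ from hhZ ⟨y, hy⟩]
          exact CongT.conj hT hφ₀ ha₀e hac ⟨y, hy⟩
        have h3 := T.mul_mem (T.inv_mem h1) h2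
        convert h3 using 1
        group
      · obtain ⟨w, hw, hwz⟩ := hh'Z.surj hz
        have hxw : x * w * x⁻¹ ∈ Z₀ := H93.mem_normalizerIn_conj hxN hw
        have e1 : g₁ x * z * (g₁ x)⁻¹ = h' x * z * (h' x)⁻¹ := by
          rw [← hwz, ← hh'.map_conj hxJ (hZ₀J hw), ← hg₁e w hw, ← hg₁.map_conj hx (le_climb hw), hg₁e _ hxw]
        calc (g₁ x)⁻¹ * h' x * z * ((g₁ x)⁻¹ * h' x)⁻¹
            = (g₁ x)⁻¹ * (h' x * z * (h' x)⁻¹) * g₁ x := by group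
          _ = z := by rw [← e1]; group
    have := (climb T T Z₀).mul_mem (hM₁ (hg₁.map_mem hx)) (le_climb hd)
    rwa [mul_inv_cancel_left] at this
  have := H96.finite_of_le (climb_le (T := T) hZ₀S hT.1)
  obtain rfl : M = climb T T Z₀ := Subgroup.eq_of_le_of_card_ge hMle hhM.card_eq.le
  obtain ⟨μ, hμ, hμe⟩ := hhM.exists_aut
  have hμp : (orderOf μ).Coprime p :=
    coprime_of_intertwine (f := fun x : ↥(climb T T Z₀) => (⟨x, hclimb x.2⟩ : J'))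
      (fun x y e => Subtype.ext (congrArg (fun z : J' => (z : Ω)) e))
      (fun x => Subtype.ext ((hh'e _).symm.trans (hμe x).symm)) hγp
  have hcardM : Nat.card ↥(Z ⊓ T) < Nat.card ↥(climb T T Z₀ ⊓ T) := by
    rw [(mor_inf hT hφ₀).card_eq]
    refine H93.card_lt_card_of_lt (inf_lt_climb hS hF hT hp₀ fun h => hc ?_) (inf_le_right.trans hT.1)
    obtain ⟨φi, hφi, -, -⟩ := hφ₀.exists_inv
    exact h.of_mor hT (mor_inf hT hφi)
  have hiff₃ : GoodAut p F E J' γ ↔ GoodAut p F E (climb T T Z₀) μ :=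
    hrec _ hcardM (hZ₀c.mono le_climb (climb_le hZ₀S hT.1)) J' hclimb hJS (hJT.trans (sup_le_sup_right le_climb T))
      γ hγF hγp μ fun x => (hh'e ⟨x, hclimb x.2⟩).symm.trans (hμe x).symm
  have hiff₄ : GoodAut p F E Z a ↔ GoodAut p F E (climb T T Z₀) μ :=
    goodAut_step_iff hS hF hI hc hZc hp₀ hφ₀ hμ hμp fun x => by
      rw [hμe, ha₀e]
      exact (hhZ ⟨φ₀ x, hφ₀.map_mem x.2⟩).symm
  rw [hiff₁, hiff₂, hiff₃, hiff₄]

end Cfsg.Agent.H24.Balance
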